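/-
A zero-one function on `ZMod p` whose `p`-fold convolution power is constant off one point is
constant off one point.
-/
import Mathlib

set_option autoImplicit false

namespace CfsgLib.DegreePSquare

open Finset

variable {p : ℕ} [Fact p.Prime]

/-- The convolution powers of a function on `ZMod p`. -/
def convPow (d : ZMod p → ℤ) : ℕ → ZMod p → ℤ
  | 0, t => if t = 0 then 1 else 0
  | m + 1, t => ∑ u, convPow d m u * d (t - u)

/-- Evaluation at a character of `ZMod p`. -/
def evalAt {R : Type*} [CommRing R] (ψ : ZMod p → R) (f : ZMod p → ℤ) : R :=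
  ∑ t, (f t : R) * ψ t

theorem evalAt_convPow {R : Type*} [CommRing R] (ψ : ZMod p → R) (h0 : ψ 0 = 1)
    (hadd : ∀ a b, ψ (a + b) = ψ a * ψ b) (d : ZMod p → ℤ) :
    ∀ m, evalAt ψ (convPow d m) = evalAt ψ d ^ m
  | 0 => by simp [evalAt, convPow, h0]
  | m + 1 => by
    rw [pow_succ, ← evalAt_convPow ψ h0 hadd d m]
    simp only [evalAt, convPow, Int.cast_sum, Int.cast_mul, Finset.sum_mul, Finset.mul_sum]
    rw [Finset.sum_comm]
    conv_rhs => rw [Finset.sum_comm]
    refine Finset.sum_congr rfl fun u _ => ?_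
    refine Fintype.sum_equiv (Equiv.subRight u) _ _ fun t => ?_
    simp only [Equiv.subRight_apply]
    conv_lhs => rw [show t = u + (t - u) by abel, hadd, show u + (t - u) = t by abel]
    ring

/-- The integral relations between the `p`-th roots of unity. -/
theorem eq_of_sum_pow_eq_zero {ζ : ℂ} (hζ : IsPrimitiveRoot ζ p) (v : ZMod p → ℤ)
    (h : ∑ t, (v t : ℂ) * ζ ^ t.val = 0) : ∀ t, v t = v 0 := by
  have hp : p.Prime := Fact.out
  haveI : NeZero p := ⟨hp.pos.ne'⟩
  set f : Polynomial ℚ := ∑ t : ZMod p, Polynomial.monomial t.val (v t : ℚ) with hf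
  have hcoef : ∀ t : ZMod p, f.coeff t.val = (v t : ℚ) := fun t => by
    rw [hf, Polynomial.finsetSum_coeff, Finset.sum_eq_single t]
    · simp
    · intro u _ hu
      rw [Polynomial.coeff_monomial, if_neg fun e => hu (ZMod.val_injective p e)]
    · simp
  have hdeg : f.natDegree ≤ p - 1 := by
    refine Polynomial.natDegree_sum_le_of_forall_le _ _ fun t _ => ?_
    exact (Polynomial.natDegree_monomial_le _).trans (by have := ZMod.val_lt t; omega)
  have hroot : Polynomial.aeval ζ f = 0 := by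
    rw [hf, map_sum]
    refine Eq.trans (Finset.sum_congr rfl fun t _ => ?_) h
    rw [Polynomial.aeval_monomial]
    simp
  have hdvd : Polynomial.cyclotomic p ℚ ∣ f := by
    rw [Polynomial.cyclotomic_eq_minpoly_rat hζ hp.pos]
    exact minpoly.dvd ℚ ζ hroot
  obtain ⟨c, hc⟩ := hdvd
  intro t
  by_cases hf0 : f = 0
  · have h1 := hcoef t
    have h2 := hcoef 0
    rw [hf0, Polynomial.coeff_zero] at h1 h2
    exact_mod_cast h1.symm.trans h2
  have hc0 : c ≠ 0 := fun e => hf0 (by rw [hc, e, mul_zero])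
  have hcd : c.natDegree = 0 := by
    have := congrArg Polynomial.natDegree hc
    rw [Polynomial.natDegree_mul (Polynomial.cyclotomic_ne_zero p ℚ) hc0,
      Polynomial.natDegree_cyclotomic, Nat.totient_prime hp] at this
    omega
  obtain ⟨c0, rfl⟩ := Polynomial.natDegree_eq_zero.1 hcd
  have hall : ∀ u : ZMod p, (v u : ℚ) = c0 := fun u => by
    rw [← hcoef u, hc, Polynomial.coeff_mul_C, Polynomial.cyclotomic_prime,
      Polynomial.finsetSum_coeff, Finset.sum_eq_single u.val]
    · simp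
    · intro i _ hi
      simp [Polynomial.coeff_X_pow, Ne.symm hi]
    · intro hu
      exact absurd (Finset.mem_range.2 (ZMod.val_lt u)) hu
  exact_mod_cast (hall t).trans (hall 0).symm

theorem sum_pow_val_eq_zero {ζ : ℂ} (hζ : IsPrimitiveRoot ζ p) : ∑ t : ZMod p, ζ ^ t.val = 0 := by
  have hp : p.Prime := Fact.out
  haveI : NeZero p := ⟨hp.pos.ne'⟩
  rw [← hζ.geom_sum_eq_zero hp.one_lt]
  refine Finset.sum_bij (fun t _ => t.val) (fun t _ => Finset.mem_range.2 (ZMod.val_lt t))
    (fun a _ b _ h => ZMod.val_injective p h)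
    (fun i hi => ⟨(i : ZMod p), Finset.mem_univ _, ZMod.val_cast_of_lt (Finset.mem_range.1 hi)⟩)
    (fun _ _ => rfl)

/-- A zero-one function whose `p`-fold convolution power is constant off one point is constant off
one point. -/
theorem const_off_point (hp3 : 3 ≤ p) (d : ZMod p → ℤ) (hd : ∀ t, d t = 0 ∨ d t = 1)
    (hne : ∃ t, d t = 1) (hne' : ∃ t, d t = 0) (s : ZMod p)
    (hconst : ∀ t t', t ≠ s → t' ≠ s → convPow d p t = convPow d p t') :
    ∃ m, ∀ t t', t ≠ m → t' ≠ m → d t = d t' := by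
  classical
  have hp : p.Prime := Fact.out
  haveI : NeZero p := ⟨hp.pos.ne'⟩
  obtain ⟨t0, ht0⟩ : ∃ t, t ≠ s := ⟨s + 1, by simp⟩
  set c := convPow d p t0 with hc
  set e := convPow d p s - c with he
  have hP : ∀ t, convPow d p t = c + if t = s then e else 0 := fun t => by
    by_cases h : t = s
    · subst h; simp [he]
    · rw [if_neg h, add_zero, hc]; exact hconst t t0 h ht0
  -- the exceptional point is `0`
  have hs : s = 0 := by
    by_contra hs
    let ψ : ZMod p → AddMonoidAlgebra (ZMod p) (ZMod p) := fun t => AddMonoidAlgebra.single t 1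
    have hψ0 : ψ 0 = 1 := rfl
    have hψadd : ∀ a b, ψ (a + b) = ψ a * ψ b := fun a b => by
      simp [ψ, AddMonoidAlgebra.single_mul_single]
    have hψp : ∀ a, ψ a ^ p = 1 := fun a => by
      simp [ψ, AddMonoidAlgebra.single_pow, ← hψ0]
    haveI : CharP (AddMonoidAlgebra (ZMod p) (ZMod p)) p :=
      charP_of_injective_algebraMap (FaithfulSMul.algebraMap_injective (ZMod p) _) p
    have h1 := evalAt_convPow ψ hψ0 hψadd d p
    have h2 : evalAt ψ d ^ p = ((∑ t, d t : ℤ) : AddMonoidAlgebra (ZMod p) (ZMod p)) := by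
      rw [evalAt, sum_pow_char, Int.cast_sum]
      refine Finset.sum_congr rfl fun t _ => ?_
      rw [mul_pow, hψp, mul_one]
      rcases hd t with h | h <;> simp [h, zero_pow hp.ne_zero]
    have hcoef : ∀ u : ZMod p, (convPow d p u : ZMod p) =
        if u = 0 then ((∑ t, d t : ℤ) : ZMod p) else 0 := by
      intro u
      have := congrArg (fun f : AddMonoidAlgebra (ZMod p) (ZMod p) => f.coeff u) (h1.trans h2)
      simp only [evalAt, ψ, AddMonoidAlgebra.coeff_sum, Finsupp.finsetSum_apply] at this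
      rw [Finset.sum_eq_single u] at this
      · rw [show ((∑ t, d t : ℤ) : AddMonoidAlgebra (ZMod p) (ZMod p)) =
          AddMonoidAlgebra.single 0 ((∑ t, d t : ℤ) : ZMod p) from rfl] at this
        rw [show (convPow d p u : AddMonoidAlgebra (ZMod p) (ZMod p)) =
          AddMonoidAlgebra.single 0 (convPow d p u : ZMod p) from rfl,
          AddMonoidAlgebra.single_mul_single] at this
        simpa [Finsupp.single_apply, eq_comm] using this
      · intro b _ hb
        rw [show (convPow d p b : AddMonoidAlgebra (ZMod p) (ZMod p)) =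
          AddMonoidAlgebra.single 0 (convPow d p b : ZMod p) from rfl,
          AddMonoidAlgebra.single_mul_single]
        simp [Finsupp.single_apply, hb]
      · simp
    obtain ⟨t, hts, ht⟩ : ∃ t : ZMod p, t ≠ s ∧ t ≠ 0 := by
      by_contra hcon
      have : (Finset.univ : Finset (ZMod p)) ⊆ {0, s} := fun t _ => by
        by_cases h1 : t = s
        · simp [h1]
        · by_cases h2 : t = 0
          · simp [h2]
          · exact absurd ⟨t, h1, h2⟩ hcon
      have := Finset.card_le_card this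
      rw [Finset.card_univ, ZMod.card] at this
      have := (Finset.card_insert_le 0 ({s} : Finset (ZMod p)))
      simp at this
      omega
    have hk := hcoef 0
    have hz := hcoef t
    rw [hP, if_neg (Ne.symm hs), if_pos rfl, add_zero] at hk
    rw [hP, if_neg hts, if_neg ht, add_zero] at hz
    rw [hz, eq_comm, ZMod.intCast_zmod_eq_zero_iff_dvd] at hk
    have hsum0 : 0 < ∑ t, d t := by
      obtain ⟨t1, ht1⟩ := hne
      exact Finset.sum_pos' (fun u _ => by rcases hd u with h | h <;> omega)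
        ⟨t1, Finset.mem_univ _, by omega⟩
    have hsumlt : ∑ t, d t < p := by
      obtain ⟨t1, ht1⟩ := hne'
      calc ∑ t, d t < ∑ _t : ZMod p, (1 : ℤ) := Finset.sum_lt_sum
            (fun u _ => by rcases hd u with h | h <;> omega) ⟨t1, Finset.mem_univ _, by omega⟩
        _ = p := by simp
    exact absurd (Int.le_of_dvd hsum0 hk) (by omega)
  subst hs
  set ζ : ℂ := Complex.exp (2 * Real.pi * Complex.I / p) with hζdef
  have hζ : IsPrimitiveRoot ζ p := Complex.isPrimitiveRoot_exp p hp.pos.ne'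
  have hpow : ∀ a b : ZMod p, ζ ^ (a + b).val = ζ ^ a.val * ζ ^ b.val := fun a b => by
    rw [← pow_add, ZMod.val_add, pow_eq_pow_mod (a.val + b.val) hζ.pow_eq_one]
  obtain ⟨g, hg⟩ := IsCyclic.exists_generator (α := (ZMod p)ˣ)
  set z : (ZMod p)ˣ → ℂ := fun h => evalAt (fun t => ζ ^ ((h : ZMod p) * t).val) d with hz
  have hzp : ∀ h : (ZMod p)ˣ, z h ^ p = e := by
    intro h
    rw [hz, ← evalAt_convPow _ (by simp) (fun a b => by simp [mul_add, hpow]) d p, evalAt]
    have e1 : ∑ t, ((c : ℂ) + (if t = 0 then (e : ℂ) else 0)) * ζ ^ ((h : ZMod p) * t).val = e := by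
      rw [Finset.sum_congr rfl (fun t _ => add_mul _ _ _), Finset.sum_add_distrib, ← Finset.mul_sum,
        Fintype.sum_equiv (Units.mulLeft h) (fun t : ZMod p => ζ ^ ((h : ZMod p) * t).val)
          (fun t => ζ ^ t.val) (fun _ => rfl), sum_pow_val_eq_zero hζ]
      simp
    rw [← e1]
    refine Finset.sum_congr rfl fun t _ => ?_
    rw [hP]; push_cast; rfl
  have hz1 : z 1 = ∑ t, (d t : ℂ) * ζ ^ t.val := by simp [hz, evalAt]
  have hz10 : z 1 ≠ 0 := by
    intro h0
    have := eq_of_sum_pow_eq_zero hζ d (hz1 ▸ h0)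
    obtain ⟨t1, ht1⟩ := hne
    obtain ⟨t2, ht2⟩ := hne'
    rw [this] at ht1 ht2
    omega
  have hratio : (z g / z 1) ^ p = 1 := by
    rw [div_pow, hzp, hzp, div_self]
    rw [← hzp 1]; exact pow_ne_zero _ hz10
  obtain ⟨i, hi, hzi⟩ := hζ.eq_pow_of_pow_eq_one hratio
  set f : ZMod p := (i : ZMod p) with hf
  have hzg : z g = ζ ^ f.val * z 1 := by
    rw [hf, ZMod.val_cast_of_lt hi, hzi, div_mul_cancel₀ _ hz10]
  have hdiff : ∑ t, ((d ((g⁻¹ : (ZMod p)ˣ) * t) - d (t - f) : ℤ) : ℂ) * ζ ^ t.val = 0 := by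
    simp only [Int.cast_sub, sub_mul, Finset.sum_sub_distrib]
    rw [sub_eq_zero]
    calc ∑ t, (d ((g⁻¹ : (ZMod p)ˣ) * t) : ℂ) * ζ ^ t.val = z g := by
          refine Fintype.sum_equiv (Units.mulLeft g⁻¹) _ _ fun t => ?_
          show (d ((g⁻¹ : (ZMod p)ˣ) * t) : ℂ) * ζ ^ t.val =
            (d ((g⁻¹ : (ZMod p)ˣ) * t) : ℂ) * ζ ^ ((g : ZMod p) * ((g⁻¹ : (ZMod p)ˣ) * t)).val
          rw [Units.mul_inv_cancel_left]
      _ = ∑ t, (d (t - f) : ℂ) * ζ ^ t.val := by
          rw [hzg, hz1, Finset.mul_sum]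
          refine Fintype.sum_equiv (Equiv.addRight f) _ _ fun t => ?_
          simp only [Equiv.coe_addRight, add_sub_cancel_right, hpow]
          ring
  have hconstv := eq_of_sum_pow_eq_zero hζ _ hdiff
  have heq : ∀ t, d ((g⁻¹ : (ZMod p)ˣ) * t) = d (t - f) := by
    intro t
    have hsum : ∑ t : ZMod p, (d ((g⁻¹ : (ZMod p)ˣ) * t) - d (t - f)) = 0 := by
      rw [Finset.sum_sub_distrib, sub_eq_zero]
      exact (Fintype.sum_equiv (Units.mulLeft g⁻¹) _ d fun _ => rfl).trans
        (Fintype.sum_equiv (Equiv.subRight f) _ d fun _ => rfl).symm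
    rw [Finset.sum_congr rfl (fun u _ => hconstv u)] at hsum
    simp only [Finset.sum_const, Finset.card_univ, ZMod.card, nsmul_eq_mul, mul_eq_zero] at hsum
    rcases hsum with h | h
    · exact absurd h (by exact_mod_cast hp.ne_zero)
    · rw [← hconstv t, sub_eq_zero] at h; exact h
  have hg1 : (g : ZMod p) ≠ 1 := by
    intro h
    have h2 : ((2 : ℕ) : ZMod p) ≠ 0 := by
      rw [Ne, ZMod.natCast_eq_zero_iff]
      intro hd2
      have := Nat.le_of_dvd (by omega) hd2
      omega
    obtain ⟨n, hn⟩ := hg (Units.mk0 _ h2)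
    have hn2 : (g ^ n) = Units.mk0 _ h2 := hn
    rw [show g = 1 from Units.ext h, one_zpow] at hn2
    have : (1 : ZMod p) = ((2 : ℕ) : ZMod p) := congrArg Units.val hn2
    push_cast at this
    exact one_ne_zero (show (1 : ZMod p) = 0 by linear_combination -this)
  have hgi : ((g⁻¹ : (ZMod p)ˣ) : ZMod p) ≠ 1 := fun h => hg1 (by
    have := Units.mul_inv g
    rwa [h, mul_one] at this)
  obtain ⟨M, hM⟩ : ∃ M, ((g⁻¹ : (ZMod p)ˣ) : ZMod p) * M = M - f :=
    ⟨f / (1 - (g⁻¹ : (ZMod p)ˣ)), by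
      have : (1 : ZMod p) - (g⁻¹ : (ZMod p)ˣ) ≠ 0 := sub_ne_zero.2 (Ne.symm hgi)
      field_simp; ring⟩
  set m := M - f with hm
  have hinv : ∀ u, d (((g⁻¹ : (ZMod p)ˣ) : ZMod p) * u + m) = d (u + m) := fun u => by
    have := heq (u + M)
    rw [mul_add, hM] at this
    rwa [show u + M - f = u + m by rw [hm]; ring] at this
  let H : Subgroup (ZMod p)ˣ :=
    { carrier := {h | ∀ u, d ((h : ZMod p) * u + m) = d (u + m)}
      one_mem' := fun u => by simp
      mul_mem' := fun {a b} ha hb u => by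
        rw [Units.val_mul, mul_assoc, ha, hb]
      inv_mem' := fun {a} ha u => by
        have := ha ((a⁻¹ : (ZMod p)ˣ) * u)
        rw [Units.mul_inv_cancel_left] at this
        exact this.symm }
  have hgH : g ∈ H := by simpa using H.inv_mem (show g⁻¹ ∈ H from hinv)
  refine ⟨m, fun t t' ht ht' => ?_⟩
  obtain ⟨n, hn⟩ := hg (Units.mk0 (t' - m) (sub_ne_zero.2 ht') / Units.mk0 (t - m) (sub_ne_zero.2 ht))
  have hn' : g ^ n = _ := hn
  have := H.zpow_mem hgH n (t - m)
  rw [hn', Units.val_div_eq_div_val, Units.val_mk0, Units.val_mk0,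
    div_mul_cancel₀ _ (sub_ne_zero.2 ht), sub_add_cancel, sub_add_cancel] at this
  exact this.symm

end CfsgLib.DegreePSquare
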