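/-
Subgroups of a two point stabiliser of a 2-transitive group of degree `p ^ 2 + 1` fixing a third
point cannot be weakly closed.
-/
import Mathlib

set_option autoImplicit false

namespace CfsgLib.DegreePSquare

open MulAction

variable {G Ω : Type*} [Group G] [MulAction G Ω]

/-- The conjugate of a subgroup. -/
def conjSub (g : G) (W : Subgroup G) : Subgroup G := W.map (MulAut.conj g).toMonoidHom

theorem mem_conjSub {g x : G} {W : Subgroup G} : x ∈ conjSub g W ↔ g⁻¹ * x * g ∈ W := by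
  constructor
  · rintro ⟨w, hw, rfl⟩
    simpa [mul_assoc] using hw
  · intro h
    exact ⟨_, h, by simp [mul_assoc]⟩

theorem conjSub_mul (g h : G) (W : Subgroup G) : conjSub (g * h) W = conjSub g (conjSub h W) := by
  ext x
  simp [mem_conjSub, mul_assoc]

theorem conjSub_one (W : Subgroup G) : conjSub (1 : G) W = W := by
  ext x
  simp [mem_conjSub]

theorem conjSub_inv_conjSub (g : G) (W : Subgroup G) : conjSub g⁻¹ (conjSub g W) = W := by
  rw [← conjSub_mul, inv_mul_cancel, conjSub_one]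

theorem card_conjSub (g : G) (W : Subgroup G) : Nat.card ↥(conjSub g W) = Nat.card ↥W :=
  (Nat.card_congr (Subgroup.equivMapOfInjective W _ (MulAut.conj g).injective).toEquiv).symm

/-- The points fixed by a subgroup. -/
def fix (Ω : Type*) [MulAction G Ω] (W : Subgroup G) : Set Ω := {x | ∀ w ∈ W, w • x = x}

theorem fix_conjSub (g : G) (W : Subgroup G) : fix Ω (conjSub g W) = (g • ·) '' fix Ω W := by
  ext x
  constructor
  · intro h
    refine ⟨g⁻¹ • x, fun w hw => ?_, smul_inv_smul g x⟩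
    have := h (g * w * g⁻¹) (mem_conjSub.2 (by simpa [mul_assoc] using hw))
    rw [mul_smul, mul_smul] at this
    exact eq_inv_smul_iff.2 this
  · rintro ⟨y, hy, rfl⟩ w hw
    have := hy _ (mem_conjSub.1 hw)
    rw [mul_smul, mul_smul, inv_smul_eq_iff] at this
    exact this

theorem le_stab_of_mem_fix {W : Subgroup G} {g : G} {a b : Ω} (ha : g • a ∈ fix Ω W)
    (hb : g • b ∈ fix Ω W) : conjSub g⁻¹ W ≤ stabilizer G a ⊓ stabilizer G b := by
  have h : fix Ω (conjSub g⁻¹ W) = (g⁻¹ • ·) '' fix Ω W := fix_conjSub _ _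
  intro w hw
  have h1 : a ∈ fix Ω (conjSub g⁻¹ W) := by rw [h]; exact ⟨_, ha, inv_smul_smul g a⟩
  have h2 : b ∈ fix Ω (conjSub g⁻¹ W) := by rw [h]; exact ⟨_, hb, inv_smul_smul g b⟩
  exact ⟨h1 w hw, h2 w hw⟩

variable [Finite G] [Finite Ω] [FaithfulSMul G Ω]

/-- A weakly closed subgroup of a two point stabiliser fixes no third point. -/
theorem steiner_false {p : ℕ} (hp : p.Prime) (hp3 : 3 ≤ p) (hn : Nat.card Ω = p ^ 2 + 1)
    (h2 : IsMultiplyPretransitive G Ω 2) {a b : Ω} (hab : a ≠ b) {W : Subgroup G}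
    (hW : W ≤ stabilizer G a ⊓ stabilizer G b) (hW1 : W ≠ ⊥)
    (hweak : ∀ g : G, conjSub g W ≤ stabilizer G a ⊓ stabilizer G b → conjSub g W = W)
    {c : Ω} (hca : c ≠ a) (hcb : c ≠ b) (hc : c ∈ fix Ω W) : False := by
  classical
  haveI := Fintype.ofFinite Ω
  rw [MulAction.is_two_pretransitive_iff] at h2
  set F : Finset Ω := Finset.univ.filter (· ∈ fix Ω W) with hF
  have hmF : ∀ x, x ∈ F ↔ x ∈ fix Ω W := fun x => by simp [hF]
  have haF : a ∈ F := (hmF a).2 fun w hw => (hW hw).1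
  have hbF : b ∈ F := (hmF b).2 fun w hw => (hW hw).2
  have hcF : c ∈ F := (hmF c).2 hc
  -- the line through two points is unique
  have key : ∀ (g : G) (x y : Ω) (g' : G), x ≠ y → g⁻¹ • x ∈ F → g⁻¹ • y ∈ F → g' • a = x → g' • b = y →
      F.image (g • ·) = F.image (g' • ·) := by
    intro g x y g' _ hx hy hgx hgy
    have hle : conjSub (g⁻¹ * g')⁻¹ W ≤ stabilizer G a ⊓ stabilizer G b := by
      refine le_stab_of_mem_fix ?_ ?_
      · rw [mul_smul, hgx]; exact (hmF _).1 hx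
      · rw [mul_smul, hgy]; exact (hmF _).1 hy
    have hfix : F.image ((g⁻¹ * g') • ·) = F := by
      have h := hweak _ hle
      have h' : conjSub (g⁻¹ * g') W = W := by
        conv_lhs => rw [← h, ← conjSub_mul, mul_inv_cancel, conjSub_one]
      ext x
      rw [Finset.mem_image, hmF]
      conv_rhs => rw [← h', fix_conjSub]
      simp [hmF]
    calc F.image (g • ·) = (F.image ((g⁻¹ * g') • ·)).image (g • ·) := by rw [hfix]
      _ = F.image (g' • ·) := by
        rw [Finset.image_image]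
        refine Finset.image_congr fun z _ => ?_
        simp [← mul_smul]
  haveI : Fintype G := Fintype.ofFinite G
  set L : Finset (Finset Ω) := Finset.univ.image (fun g : G => F.image (g • ·)) with hL
  have hcard : ∀ l ∈ L, l.card = F.card := by
    intro l hl
    obtain ⟨g, -, rfl⟩ := Finset.mem_image.1 hl
    exact Finset.card_image_of_injective _ (MulAction.injective g)
  have huniq : ∀ x y : Ω, x ≠ y → ∀ l ∈ L, ∀ l' ∈ L, x ∈ l → y ∈ l → x ∈ l' → y ∈ l' → l = l' := by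
    intro x y hxy l hl l' hl' hxl hyl hxl' hyl'
    obtain ⟨g, -, rfl⟩ := Finset.mem_image.1 hl
    obtain ⟨g', -, rfl⟩ := Finset.mem_image.1 hl'
    obtain ⟨h, hha, hhb⟩ := h2 hab hxy
    have hin : ∀ (k : G) (z : Ω), z ∈ F.image (k • ·) → k⁻¹ • z ∈ F := by
      intro k z hz
      obtain ⟨w, hw, rfl⟩ := Finset.mem_image.1 hz
      rwa [inv_smul_smul]
    rw [key g x y h hxy (hin g x hxl) (hin g y hyl) hha hhb,
      key g' x y h hxy (hin g' x hxl') (hin g' y hyl') hha hhb]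
  have hex : ∀ x y : Ω, x ≠ y → ∃ l ∈ L, x ∈ l ∧ y ∈ l := by
    intro x y hxy
    obtain ⟨g, hga, hgb⟩ := h2 hab hxy
    exact ⟨_, Finset.mem_image.2 ⟨g, Finset.mem_univ _, rfl⟩,
      Finset.mem_image.2 ⟨a, haF, hga⟩, Finset.mem_image.2 ⟨b, hbF, hgb⟩⟩
  set f := F.card with hf
  have hN : Fintype.card Ω = p ^ 2 + 1 := by rw [← Nat.card_eq_fintype_card, hn]
  -- the lines through one point
  have h1 : (L.filter (a ∈ ·)).card * (f - 1) = p ^ 2 := by
    have hdisj : ((L.filter (a ∈ ·) : Finset (Finset Ω)) : Set (Finset Ω)).PairwiseDisjoint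
        (fun l => l.erase a) := by
      intro l hl l' hl' hne
      rw [Function.onFun, Finset.disjoint_left]
      intro z hz hz'
      simp only [Finset.coe_filter, Set.mem_setOf_eq] at hl hl'
      simp only [Finset.mem_erase] at hz hz'
      exact hne (huniq a z (Ne.symm hz.1) l hl.1 l' hl'.1 hl.2 hz.2 hl'.2 hz'.2)
    have hU : (L.filter (a ∈ ·)).biUnion (fun l => l.erase a) = Finset.univ.erase a := by
      ext z
      simp only [Finset.mem_biUnion, Finset.mem_filter, Finset.mem_erase, Finset.mem_univ, and_true]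
      refine ⟨fun ⟨l, _, hz⟩ => hz.1, fun hz => ?_⟩
      obtain ⟨l, hl, ha, hz'⟩ := hex a z (Ne.symm hz)
      exact ⟨l, ⟨hl, ha⟩, hz, hz'⟩
    have := congrArg Finset.card hU
    rw [Finset.card_biUnion hdisj, Finset.sum_congr rfl (fun l hl => by
      rw [Finset.card_erase_of_mem (Finset.mem_filter.1 hl).2, hcard l (Finset.mem_filter.1 hl).1]),
      Finset.sum_const, smul_eq_mul, Finset.card_erase_of_mem (Finset.mem_univ a), Finset.card_univ,
      hN] at this
    simpa using this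
  -- all the lines
  have h3 : L.card * (f * f - f) = (p ^ 2 + 1) * (p ^ 2 + 1) - (p ^ 2 + 1) := by
    have hdisj : (L : Set (Finset Ω)).PairwiseDisjoint (fun l => l.offDiag) := by
      intro l hl l' hl' hne
      rw [Function.onFun, Finset.disjoint_left]
      intro z hz hz'
      simp only [Finset.mem_offDiag] at hz hz'
      exact hne (huniq z.1 z.2 hz.2.2 l hl l' hl' hz.1 hz.2.1 hz'.1 hz'.2.1)
    have hU : L.biUnion (fun l => l.offDiag) = (Finset.univ : Finset Ω).offDiag := by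
      ext z
      simp only [Finset.mem_biUnion, Finset.mem_offDiag, Finset.mem_univ, true_and]
      refine ⟨fun ⟨l, _, hz⟩ => hz.2.2, fun hz => ?_⟩
      obtain ⟨l, hl, hz1, hz2⟩ := hex z.1 z.2 hz
      exact ⟨l, hl, hz1, hz2, hz⟩
    have := congrArg Finset.card hU
    rw [Finset.card_biUnion hdisj, Finset.sum_congr rfl (fun l hl => by
      rw [Finset.offDiag_card, hcard l hl]), Finset.sum_const, smul_eq_mul, Finset.offDiag_card,
      Finset.card_univ, hN] at this
    exact this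
  have hf3 : 3 ≤ f := by
    have h : ({a, b, c} : Finset Ω) ⊆ F := by
      intro z hz
      simp only [Finset.mem_insert, Finset.mem_singleton] at hz
      rcases hz with rfl | rfl | rfl <;> assumption
    have := Finset.card_le_card h
    rw [Finset.card_eq_three.2 ⟨a, b, c, hab, hca.symm, hcb.symm, rfl⟩] at this
    exact this
  have hfn : f < p ^ 2 + 1 := by
    rw [← hN]
    refine Finset.card_lt_univ_of_notMem (x := ?_) ?_
    · exact Classical.choose (not_forall.1 (fun hall : ∀ x, x ∈ F => hW1 ((Subgroup.eq_bot_iff_forall W).2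
        fun w hw => eq_of_smul_eq_smul (α := Ω) fun x => by rw [(hmF x).1 (hall x) w hw, one_smul])))
    · exact Classical.choose_spec (not_forall.1 (fun hall : ∀ x, x ∈ F => hW1 ((Subgroup.eq_bot_iff_forall W).2
        fun w hw => eq_of_smul_eq_smul (α := Ω) fun x => by rw [(hmF x).1 (hall x) w hw, one_smul])))
  obtain ⟨i, hi, hfi⟩ := (Nat.dvd_prime_pow hp).1 (Dvd.intro_left _ h1 : f - 1 ∣ p ^ 2)
  have hi1 : i = 1 := by
    rcases i with _ | _ | i
    · rw [pow_zero] at hfi; omega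
    · rfl
    · have : i = 0 := by omega
      subst this
      change f - 1 = p ^ 2 at hfi
      omega
  rw [hi1, pow_one] at hfi
  have hfp : f = p + 1 := by omega
  rw [hfp] at h3
  have e1 : (p + 1) * (p + 1) - (p + 1) = (p + 1) * p := by
    rw [Nat.mul_succ]; omega
  have e2 : (p ^ 2 + 1) * (p ^ 2 + 1) - (p ^ 2 + 1) = (p ^ 2 + 1) * p ^ 2 := by
    rw [Nat.mul_succ]; omega
  rw [e1, e2] at h3
  have hdvd : (p + 1) ∣ (p ^ 2 + 1) * p ^ 2 := ⟨L.card * p, by rw [← h3]; ring⟩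
  have hcop : Nat.Coprime (p + 1) (p ^ 2) := Nat.Coprime.pow_right 2 (by simp)
  have h4 : (p + 1) ∣ p ^ 2 + 1 := hcop.dvd_of_dvd_mul_right hdvd
  have h5 : (p + 1) ∣ p * (p + 1) := dvd_mul_left _ _
  have h6 : (p + 1) ∣ p ^ 2 + 1 + (p + 1) := h4.add dvd_rfl
  have h7 : p ^ 2 + 1 + (p + 1) = p * (p + 1) + 2 := by ring
  rw [h7] at h6
  have := Nat.le_of_dvd (by norm_num) ((Nat.dvd_add_right h5).1 h6)
  omega

/-- Two normal subgroups of a two point stabiliser, one of which fixes a third point, cannot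
contain all conjugates of the larger one inside the stabiliser. -/
theorem two_candidates_false {p : ℕ} (hp : p.Prime) (hp3 : 3 ≤ p) (hn : Nat.card Ω = p ^ 2 + 1)
    (h2 : IsMultiplyPretransitive G Ω 2) {a b : Ω} (hab : a ≠ b) {W₁ W₂ : Subgroup G}
    (hW : W₁ ≤ stabilizer G a ⊓ stabilizer G b) (hW1 : W₁ ≠ ⊥) (hinf : W₁ ⊓ W₂ = ⊥)
    (hnorm : ∀ h : G, h ∈ stabilizer G a ⊓ stabilizer G b → conjSub h W₁ = W₁)
    (hle : Nat.card W₂ ≤ Nat.card W₁)
    (hdich : ∀ g : G, conjSub g W₁ ≤ stabilizer G a ⊓ stabilizer G b →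
      conjSub g W₁ ≤ W₁ ∨ conjSub g W₁ ≤ W₂)
    (htrans : ∀ y ∈ fix Ω W₁, y ≠ a → ∃ g : G, g • a = a ∧ g • b = y ∧ conjSub g W₁ = W₁)
    {c : Ω} (hca : c ≠ a) (hcb : c ≠ b) (hc : c ∈ fix Ω W₁) : False := by
  have hd : ∀ g : G, conjSub g W₁ ≤ stabilizer G a ⊓ stabilizer G b →
      conjSub g W₁ = W₁ ∨ conjSub g W₁ = W₂ := by
    intro g hg
    rcases hdich g hg with h | h
    · exact Or.inl (Subgroup.eq_of_le_of_card_ge h (by rw [card_conjSub]))
    · exact Or.inr (Subgroup.eq_of_le_of_card_ge h (by rw [card_conjSub]; exact hle))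
  by_cases hg0 : ∀ g : G, conjSub g W₁ ≤ stabilizer G a ⊓ stabilizer G b → conjSub g W₁ = W₁
  · exact steiner_false hp hp3 hn h2 hab hW hW1 hg0 hca hcb hc
  simp only [not_forall] at hg0
  obtain ⟨g0, hg0le, hg0ne⟩ := hg0
  have hg0 : conjSub g0 W₁ = W₂ := (hd g0 hg0le).resolve_left hg0ne
  have hne : W₁ ≠ W₂ := fun e => hW1 (by rw [← hinf, ← e, inf_idem])
  have hW2 : W₂ ≤ stabilizer G a ⊓ stabilizer G b := hg0 ▸ hg0le
  have haF : a ∈ fix Ω W₁ := fun w hw => (hW hw).1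
  have hbF : b ∈ fix Ω W₁ := fun w hw => (hW hw).2
  -- the stabiliser of `W₁`
  have hNfix : ∀ n : G, conjSub n W₁ = W₁ → ∀ x ∈ fix Ω W₁, n • x ∈ fix Ω W₁ := by
    intro n hn x hx
    rw [← hn, fix_conjSub]
    exact ⟨x, hx, rfl⟩
  have hmul : ∀ m n : G, conjSub m W₁ = W₁ → conjSub n W₁ = W₁ → conjSub (m * n) W₁ = W₁ :=
    fun m n hm hn => by rw [conjSub_mul, hn, hm]
  have hinv : ∀ m : G, conjSub m W₁ = W₁ → conjSub m⁻¹ W₁ = W₁ :=
    fun m hm => by conv_lhs => rw [← hm, conjSub_inv_conjSub]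
  rw [MulAction.is_two_pretransitive_iff] at h2
  have htype : ∀ x ∈ fix Ω W₁, ∀ y ∈ fix Ω W₁, x ≠ y →
      (∃ n, conjSub n W₁ = W₁ ∧ n • a = x ∧ n • b = y) ∨
      (∃ n, conjSub n W₁ = W₁ ∧ n • g0⁻¹ • a = x ∧ n • g0⁻¹ • b = y) := by
    intro x hx y hy hxy
    obtain ⟨g, hga, hgb⟩ := h2 hab hxy
    rcases hd g⁻¹ (le_stab_of_mem_fix (by rwa [hga]) (by rwa [hgb])) with h | h
    · exact Or.inl ⟨g, by simpa using hinv _ h, hga, hgb⟩
    · refine Or.inr ⟨g * g0, ?_, by rw [mul_smul, smul_inv_smul, hga], by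
        rw [mul_smul, smul_inv_smul, hgb]⟩
      rw [conjSub_mul, hg0, ← h, ← conjSub_mul, mul_inv_cancel, conjSub_one]
  have hdisj : ∀ n, conjSub n W₁ = W₁ → n • a = g0⁻¹ • a → n • b = g0⁻¹ • b → False := by
    intro n hn hna hnb
    have hh : g0 * n ∈ stabilizer G a ⊓ stabilizer G b :=
      ⟨show (g0 * n) • a = a by rw [mul_smul, hna, smul_inv_smul],
        show (g0 * n) • b = b by rw [mul_smul, hnb, smul_inv_smul]⟩
    have := hnorm _ hh
    rw [conjSub_mul, hn, hg0] at this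
    exact hne this.symm
  have ha'F : g0⁻¹ • a ∈ fix Ω W₁ := by
    rw [show fix Ω W₁ = fix Ω (conjSub g0⁻¹ W₂) by rw [← hg0, conjSub_inv_conjSub], fix_conjSub]
    exact ⟨a, fun w hw => (hW2 hw).1, rfl⟩
  have hb'F : g0⁻¹ • b ∈ fix Ω W₁ := by
    rw [show fix Ω W₁ = fix Ω (conjSub g0⁻¹ W₂) by rw [← hg0, conjSub_inv_conjSub], fix_conjSub]
    exact ⟨b, fun w hw => (hW2 hw).2, rfl⟩
  -- pairs starting in the orbit of `a` are of the first type
  have hfirst : ∀ n, conjSub n W₁ = W₁ → n • a = g0⁻¹ • a → False := by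
    intro n hn hna
    have hy : n⁻¹ • g0⁻¹ • b ∈ fix Ω W₁ := hNfix _ (hinv _ hn) _ hb'F
    have hya : n⁻¹ • g0⁻¹ • b ≠ a := by
      intro e
      rw [inv_smul_eq_iff, hna] at e
      exact hab (MulAction.injective g0⁻¹ e).symm
    obtain ⟨g, hga, hgb, hg⟩ := htrans _ hy hya
    refine hdisj (n * g) (hmul _ _ hn hg) ?_ ?_
    · rw [mul_smul, hga, hna]
    · rw [mul_smul, hgb, smul_inv_smul]
  have haa' : g0⁻¹ • a ≠ a := fun e => hfirst 1 (conjSub_one _) (by rw [one_smul, e])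
  have hNa : ∀ n, conjSub n W₁ = W₁ → n • a = a := by
    intro n hn
    by_contra hna
    obtain ⟨g1, h1a, h1b, h1⟩ := htrans _ ha'F haa'
    obtain ⟨g2, h2a, h2b, h2'⟩ := htrans _ (hNfix n hn a haF) hna
    refine hfirst (g1 * g2⁻¹ * n) (hmul _ _ (hmul _ _ h1 (hinv _ h2')) hn) ?_
    rw [mul_smul, mul_smul, show g2⁻¹ • n • a = b by rw [inv_smul_eq_iff, h2b], h1b]
  rcases htype b hbF a haF hab.symm with ⟨n, hn, hna, -⟩ | ⟨n, hn, hna, hnb⟩
  · exact hab ((hNa n hn).symm.trans hna)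
  rcases htype b hbF c hc hcb.symm with ⟨m, hm, hma, -⟩ | ⟨m, hm, hma, hmb⟩
  · exact hab ((hNa m hm).symm.trans hma)
  have : (m * n⁻¹) • a = c := by
    rw [mul_smul, show n⁻¹ • a = g0⁻¹ • b by rw [inv_smul_eq_iff, hnb], hmb]
  exact hca (this.symm.trans (hNa _ (hmul _ _ hm (hinv _ hn))))

end CfsgLib.DegreePSquare
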