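/-
A point stabiliser with two transversal systems of imprimitivity of blocks of size `p`.
-/
import Mathlib
import Cfsg.Agent.Lib.DegreePSquare.Steiner

set_option autoImplicit false

namespace CfsgLib.DegreePSquare

open MulAction

/-- A system of blocks of size `p` for the stabiliser of `a`, on the points other than `a`. -/
structure Sys (G : Type*) {Ω : Type*} [Group G] [MulAction G Ω] (a : Ω) (p : ℕ) where
  /-- The relation of lying in one block. -/
  rel : Ω → Ω → Prop
  ne : ∀ x y, rel x y → x ≠ a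
  refl : ∀ x, x ≠ a → rel x x
  symm : ∀ x y, rel x y → rel y x
  trans : ∀ x y z, rel x y → rel y z → rel x z
  inv : ∀ g : G, g • a = a → ∀ x y, rel x y → rel (g • x) (g • y)
  card : ∀ x, x ≠ a → Nat.card {y // rel x y} = p

namespace Sys

variable {G Ω : Type*} [Group G] [MulAction G Ω] {a : Ω} {p : ℕ} (S : Sys G a p)

theorem ne' {x y : Ω} (h : S.rel x y) : y ≠ a := S.ne y x (S.symm x y h)

/-- The pointwise stabiliser of `a` and the block of `b`. -/
def fixBlock (b : Ω) : Subgroup G := fixingSubgroup G (insert a {z | S.rel b z})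

theorem mem_fixBlock {b : Ω} {g : G} :
    g ∈ S.fixBlock b ↔ g • a = a ∧ ∀ z, S.rel b z → g • z = z := by
  rw [fixBlock, mem_fixingSubgroup_iff]
  simp [Set.forall_mem_insert]

theorem fixBlock_le {b : Ω} (hb : b ≠ a) : S.fixBlock b ≤ stabilizer G a ⊓ stabilizer G b :=
  fun _ hg => ⟨(S.mem_fixBlock.1 hg).1, (S.mem_fixBlock.1 hg).2 b (S.refl b hb)⟩

theorem conj_fixBlock {b : Ω} {h : G} (hha : h • a = a) :
    conjSub h (S.fixBlock b) = S.fixBlock (h • b) := by
  ext g
  have hia : h⁻¹ • a = a := inv_smul_eq_iff.2 hha.symm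
  rw [mem_conjSub, mem_fixBlock, mem_fixBlock]
  constructor
  · rintro ⟨h1, h2⟩
    refine ⟨?_, fun z hz => ?_⟩
    · rw [mul_smul, mul_smul, hha, inv_smul_eq_iff, hha] at h1
      exact h1
    · have hz' := S.inv h⁻¹ hia _ _ hz
      rw [inv_smul_smul] at hz'
      have := h2 _ hz'
      rw [mul_smul, mul_smul, smul_inv_smul, inv_smul_eq_iff, smul_inv_smul] at this
      exact this
  · rintro ⟨h1, h2⟩
    refine ⟨by rw [mul_smul, mul_smul, hha, h1, hia], fun z hz => ?_⟩
    rw [mul_smul, mul_smul, h2 _ (S.inv h hha _ _ hz), inv_smul_smul]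

variable (T : Sys G a p)

/-- The two systems are transversal. -/
def Transversal : Prop := ∀ x y, S.rel x y → T.rel x y → x = y

variable {S T}

theorem Transversal.symm' (h : S.Transversal T) : T.Transversal S := fun x y h1 h2 => h x y h2 h1

theorem Transversal.exists_meet [Finite Ω] (hST : S.Transversal T) (hn : Nat.card Ω = p ^ 2 + 1)
    {x y : Ω} (hx : x ≠ a) (hy : y ≠ a) : ∃ z, S.rel x z ∧ T.rel z y := by
  classical
  haveI := Fintype.ofFinite Ω
  let f : (Σ z : {z // S.rel x z}, {w // T.rel z.1 w}) → {w : Ω // w ≠ a} :=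
    fun q => ⟨q.2.1, T.ne' q.2.2⟩
  have hf : Function.Injective f := by
    rintro ⟨⟨z, hz⟩, w, hw⟩ ⟨⟨z', hz'⟩, w', hw'⟩ h
    have h' : w = w' := congrArg Subtype.val h
    subst h'
    have : z = z' := hST z z' (S.trans _ _ _ (S.symm _ _ hz) hz') (T.trans _ _ _ hw (T.symm _ _ hw'))
    subst this
    rfl
  have hcard : Nat.card (Σ z : {z // S.rel x z}, {w // T.rel z.1 w}) = Nat.card {w : Ω // w ≠ a} := by
    rw [Nat.card_sigma, Finset.sum_congr rfl (fun z _ => T.card z.1 (S.ne' z.2)), Finset.sum_const,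
      Finset.card_univ, ← Nat.card_eq_fintype_card, S.card x hx, smul_eq_mul,
      Nat.card_eq_fintype_card (α := {w : Ω // w ≠ a}), Fintype.card_subtype_compl,
      Fintype.card_subtype_eq, ← Nat.card_eq_fintype_card, hn, Nat.add_sub_cancel, pow_two]
  obtain ⟨⟨⟨z, hz⟩, w, hw⟩, hq⟩ :=
    ((Nat.bijective_iff_injective_and_card f).2 ⟨hf, hcard⟩).surjective ⟨y, hy⟩
  have h' : w = y := congrArg Subtype.val hq
  exact ⟨z, hz, h' ▸ hw⟩

section

variable [Finite Ω] (hST : S.Transversal T) (hn : Nat.card Ω = p ^ 2 + 1) {b : Ω} (hb : b ≠ a)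
include hST hn hb

/-- An element fixing `a` and `b` fixes a point iff it fixes both its coordinates. -/
theorem Transversal.fix_iff {g : G} (hga : g • a = a) (hgb : g • b = b) {x u v : Ω} (hx : x ≠ a)
    (hu : S.rel x u) (hu' : T.rel u b) (hv : S.rel b v) (hv' : T.rel v x) :
    g • x = x ↔ g • u = u ∧ g • v = v := by
  have e1 := S.inv g hga _ _ hu
  have e2 := T.inv g hga _ _ hu'
  have e3 := S.inv g hga _ _ hv
  have e4 := T.inv g hga _ _ hv'
  rw [hgb] at e2 e3
  constructor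
  · intro hgx
    rw [hgx] at e1 e4
    exact ⟨hST _ _ (S.trans _ _ _ (S.symm _ _ e1) hu) (T.trans _ _ _ e2 (T.symm _ _ hu')),
      hST _ _ (S.trans _ _ _ (S.symm _ _ e3) hv) (T.trans _ _ _ e4 (T.symm _ _ hv'))⟩
  · rintro ⟨hgu, hgv⟩
    rw [hgu] at e1
    rw [hgv] at e4
    exact hST _ _ (S.trans _ _ _ e1 (S.symm _ _ hu)) (T.trans _ _ _ (T.symm _ _ e4) hv')

theorem Transversal.inf_eq_bot [FaithfulSMul G Ω] : T.fixBlock b ⊓ S.fixBlock b = ⊥ := by
  rw [Subgroup.eq_bot_iff_forall]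
  rintro g ⟨hgT, hgS⟩
  obtain ⟨hga, hgT'⟩ := T.mem_fixBlock.1 hgT
  obtain ⟨-, hgS'⟩ := S.mem_fixBlock.1 hgS
  refine eq_of_smul_eq_smul (α := Ω) fun x => ?_
  rw [one_smul]
  by_cases hx : x = a
  · subst hx; exact hga
  obtain ⟨u, hu, hu'⟩ := hST.exists_meet hn hx hb
  obtain ⟨v, hv, hv'⟩ := hST.exists_meet hn hb hx
  exact (hST.fix_iff hn hb hga (hgS' b (S.refl b hb)) hx hu hu' hv hv').2
    ⟨hgT' u (T.symm _ _ hu'), hgS' v hv⟩

/-- The number of fixed points is the product of those on the two blocks through `b`. -/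
theorem Transversal.card_fix {W : Subgroup G} (hW : W ≤ stabilizer G a ⊓ stabilizer G b) :
    Nat.card {x // x ∈ fix Ω W ∧ x ≠ a} =
      Nat.card {u // T.rel b u ∧ u ∈ fix Ω W} * Nat.card {v // S.rel b v ∧ v ∈ fix Ω W} := by
  classical
  rw [← Nat.card_prod]
  choose U hU hU' using fun x : {x // x ∈ fix Ω W ∧ x ≠ a} => hST.exists_meet hn x.2.2 hb
  choose V hV hV' using fun x : {x // x ∈ fix Ω W ∧ x ≠ a} => hST.exists_meet hn hb x.2.2
  have hfix : ∀ x, ∀ w ∈ W, w • U x = U x ∧ w • V x = V x := fun x w hw =>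
    (hST.fix_iff hn hb (hW hw).1 (hW hw).2 x.2.2 (hU x) (hU' x) (hV x) (hV' x)).1 (x.2.1 w hw)
  refine Nat.card_eq_of_bijective (fun x => (⟨U x, T.symm _ _ (hU' x), fun w hw => (hfix x w hw).1⟩,
    ⟨V x, hV x, fun w hw => (hfix x w hw).2⟩)) ⟨fun x x' h => ?_, fun q => ?_⟩
  · have h1 : U x = U x' := congrArg Subtype.val (Prod.ext_iff.1 h).1
    have h2 : V x = V x' := congrArg Subtype.val (Prod.ext_iff.1 h).2
    refine Subtype.ext (hST _ _ (S.trans _ _ _ (hU x) ?_) (T.trans _ _ _ (T.symm _ _ (hV' x)) ?_))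
    · rw [h1]; exact S.symm _ _ (hU x')
    · rw [h2]; exact hV' x'
  · obtain ⟨⟨u, hu, huW⟩, ⟨v, hv, hvW⟩⟩ := q
    obtain ⟨z, hz, hz'⟩ := hST.exists_meet hn (T.ne' hu) (S.ne' hv)
    have hza := S.ne' hz
    have hzfix : z ∈ fix Ω W := fun w hw =>
      (hST.fix_iff hn hb (hW hw).1 (hW hw).2 hza (S.symm _ _ hz) (T.symm _ _ hu) hv
        (T.symm _ _ hz')).2 ⟨huW w hw, hvW w hw⟩
    refine ⟨⟨z, hzfix, hza⟩, Prod.ext (Subtype.ext ?_) (Subtype.ext ?_)⟩
    · exact hST _ _ (S.trans _ _ _ (S.symm _ _ (hU _)) (S.symm _ _ hz))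
        (T.trans _ _ _ (hU' _) hu)
    · exact hST _ _ (S.trans _ _ _ (S.symm _ _ (hV _)) hv)
        (T.trans _ _ _ (hV' _) hz')

theorem Transversal.false_aux [Finite G] [FaithfulSMul G Ω] (hp : p.Prime) (hp3 : 3 ≤ p)
    (h2 : IsMultiplyPretransitive G Ω 2) (hT : T.fixBlock b ≠ ⊥)
    (hle : Nat.card (S.fixBlock b) ≤ Nat.card (T.fixBlock b)) : False := by
  classical
  haveI := Fintype.ofFinite Ω
  set W := T.fixBlock b with hWdef
  have hW : W ≤ stabilizer G a ⊓ stabilizer G b := T.fixBlock_le hb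
  have hTfix : ∀ u, T.rel b u → u ∈ fix Ω W := fun u hu w hw => (T.mem_fixBlock.1 hw).2 u hu
  obtain ⟨c, hc, hcb⟩ : ∃ c, T.rel b c ∧ c ≠ b := by
    by_contra hcon
    have : Nat.card {y // T.rel b y} ≤ 1 := by
      haveI : Subsingleton {y // T.rel b y} := ⟨fun u v => Subtype.ext (by
        have h1 : u.1 = b := by by_contra h; exact hcon ⟨_, u.2, h⟩
        have h2 : v.1 = b := by by_contra h; exact hcon ⟨_, v.2, h⟩
        rw [h1, h2])⟩
      exact Finite.card_le_one_iff_subsingleton.2 inferInstance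
    rw [T.card b hb] at this
    omega
  refine two_candidates_false (a := a) (b := b) hp hp3 hn h2 hb.symm hW hT (W₂ := S.fixBlock b)
    (hST.inf_eq_bot hn hb) (fun h hh => by rw [hWdef, T.conj_fixBlock hh.1, hh.2]) hle ?_ ?_
    (c := c) (T.ne' hc) hcb (hTfix c hc)
  · intro g hg
    have hfull : Nat.card {u // T.rel b u ∧ u ∈ fix Ω W} = p := by
      refine Eq.trans ?_ (T.card b hb)
      exact Nat.card_congr (Equiv.subtypeEquivRight fun u => ⟨fun h => h.1, fun h => ⟨h, hTfix u h⟩⟩)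
    have hcardg : Nat.card {x // x ∈ fix Ω (conjSub g W)} = Nat.card {x // x ∈ fix Ω W} := by
      rw [fix_conjSub]
      exact Nat.card_congr ((Equiv.Set.image _ _ (MulAction.injective g)).symm)
    have hsplit : ∀ V : Subgroup G, V ≤ stabilizer G a →
        Nat.card {x // x ∈ fix Ω V} = Nat.card {x // x ∈ fix Ω V ∧ x ≠ a} + 1 := by
      intro V hV
      rw [Nat.card_eq_fintype_card, Nat.card_eq_fintype_card, Fintype.card_subtype, Fintype.card_subtype,
        ← Finset.card_erase_add_one (s := Finset.univ.filter (· ∈ fix Ω V))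
          (Finset.mem_filter.2 ⟨Finset.mem_univ a, fun w hw => hV hw⟩)]
      congr 2
      ext x
      simp [and_comm]
    have h1 := hsplit W (hW.trans inf_le_left)
    have h2' := hsplit _ (hg.trans inf_le_left)
    rw [hcardg, h1, hST.card_fix hn hb hW, hfull, hST.card_fix hn hb hg] at h2'
    set i := Nat.card {u // T.rel b u ∧ u ∈ fix Ω (conjSub g W)} with hi
    set j := Nat.card {v // S.rel b v ∧ v ∈ fix Ω (conjSub g W)} with hj
    have hbfix : b ∈ fix Ω (conjSub g W) := fun w hw => (hg hw).2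
    have hi1 : 0 < i := by
      haveI : Nonempty {u // T.rel b u ∧ u ∈ fix Ω (conjSub g W)} := ⟨⟨b, T.refl b hb, hbfix⟩⟩
      exact Nat.card_pos
    have hj1 : 0 < j := by
      haveI : Nonempty {v // S.rel b v ∧ v ∈ fix Ω (conjSub g W)} := ⟨⟨b, S.refl b hb, hbfix⟩⟩
      exact Nat.card_pos
    have hdvd : p ∣ i * j := Dvd.intro _ (Nat.add_right_cancel h2')
    have full : ∀ (R : Sys G a p), p ≤ Nat.card {u // R.rel b u ∧ u ∈ fix Ω (conjSub g W)} →
        conjSub g W ≤ R.fixBlock b := by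
      intro R hR w hw
      refine R.mem_fixBlock.2 ⟨(hg hw).1, fun z hz => ?_⟩
      by_contra hwz
      have hlt : Nat.card {u // R.rel b u ∧ u ∈ fix Ω (conjSub g W)} < Nat.card {u // R.rel b u} := by
        rw [Nat.card_eq_fintype_card, Nat.card_eq_fintype_card, Fintype.card_subtype, Fintype.card_subtype]
        refine Finset.card_lt_card ⟨fun u hu => by simp at hu ⊢; exact hu.1, fun h => hwz ?_⟩
        have := h (Finset.mem_filter.2 ⟨Finset.mem_univ z, hz⟩)
        exact (Finset.mem_filter.1 this).2.2 w hw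
      rw [R.card b hb] at hlt
      omega
    rcases hp.dvd_mul.1 hdvd with h | h
    · exact Or.inl (full T (Nat.le_of_dvd hi1 h))
    · exact Or.inr (full S (Nat.le_of_dvd hj1 h))
  · intro y hy hya
    rw [MulAction.is_two_pretransitive_iff] at h2
    obtain ⟨g, hga, hgb⟩ := h2 hb.symm hya.symm
    refine ⟨g, hga, hgb, ?_⟩
    symm
    refine Subgroup.eq_of_le_of_card_ge (fun w hw => ?_) (by rw [card_conjSub])
    rw [hWdef, T.conj_fixBlock hga, hgb, T.mem_fixBlock]
    obtain ⟨hwa, hwT⟩ := T.mem_fixBlock.1 hw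
    have hwb := hwT b (T.refl b hb)
    refine ⟨hwa, fun z hz => ?_⟩
    have hza := T.ne' hz
    obtain ⟨u, hu, hu'⟩ := hST.exists_meet hn hza hb
    obtain ⟨v, hv, hv'⟩ := hST.exists_meet hn hb hza
    obtain ⟨uy, huy, huy'⟩ := hST.exists_meet hn hya hb
    obtain ⟨_, hvy⟩ := (hST.fix_iff hn hb hwa hwb hya huy huy' hv
      (T.trans _ _ _ hv' (T.symm _ _ hz))).1 (hy w hw)
    exact (hST.fix_iff hn hb hwa hwb hza hu hu' hv hv').2 ⟨hwT u (T.symm _ _ hu'), hvy⟩

/-- Two transversal systems with a nontrivial block kernel are impossible. -/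
theorem Transversal.false_of [Finite G] [FaithfulSMul G Ω] (hp : p.Prime) (hp3 : 3 ≤ p)
    (h2 : IsMultiplyPretransitive G Ω 2) (h : S.fixBlock b ≠ ⊥ ∨ T.fixBlock b ≠ ⊥) : False := by
  rcases le_total (Nat.card (S.fixBlock b)) (Nat.card (T.fixBlock b)) with hle | hle
  · refine hST.false_aux hn hb hp hp3 h2 (fun hT => ?_) hle
    rw [hT, Subgroup.card_bot] at hle
    exact (h.resolve_right (not_not.2 hT)) (Subgroup.eq_bot_of_card_le _ hle)
  · refine hST.symm'.false_aux hn hb hp hp3 h2 (fun hS => ?_) hle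
    rw [hS, Subgroup.card_bot] at hle
    exact (h.resolve_left (not_not.2 hS)) (Subgroup.eq_bot_of_card_le _ hle)

end

end Sys

end CfsgLib.DegreePSquare
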