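/-
An imprimitive point stabiliser of a 2-transitive group of degree `p ^ 2 + 1`: its Sylow
`p`-subgroups are regular on the other points.
-/
import Mathlib
import Cfsg.Agent.Lib.DegreePSquare.Systems

set_option autoImplicit false

namespace CfsgLib.DegreePSquare

open MulAction

variable {G Ω : Type*} [Group G] [MulAction G Ω]

/-- The standing hypotheses. -/
structure Setup (G Ω : Type*) [Group G] [MulAction G Ω] (p : ℕ) where
  prime : p.Prime
  three_le : 3 ≤ p
  card : Nat.card Ω = p ^ 2 + 1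
  two : IsMultiplyPretransitive G Ω 2
  a : Ω
  S : Sys G a p

/-- A regular Sylow subgroup of the stabiliser of `a`, and a base point. -/
structure Data (G Ω : Type*) [Group G] [MulAction G Ω] (p : ℕ) extends Setup G Ω p where
  b : Ω
  hba : b ≠ a
  P : Subgroup G
  P_le : ∀ g ∈ P, g • a = a
  P_card : Nat.card P = p ^ 2
  P_comm : ∀ g ∈ P, ∀ h ∈ P, g * h = h * g
  P_free : ∀ g ∈ P, ∀ x, x ≠ a → g • x = x → g = 1
  P_trans : ∀ x, x ≠ a → ∃ g ∈ P, g • b = x
  not_dvd : ∀ x, x ≠ a → ¬ p ∣ Nat.card ↥(stabilizer G a ⊓ stabilizer G x)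

theorem smul_ne_of_fix {g : G} {a x : Ω} (hg : g • a = a) (hx : x ≠ a) : g • x ≠ a := fun e =>
  hx (MulAction.injective g (e.trans hg.symm))

theorem inv_fix {g : G} {a : Ω} (hg : g • a = a) : g⁻¹ • a = a := inv_smul_eq_iff.2 hg.symm

theorem not_dvd_orderOf [Finite G] {H : Subgroup G} {p : ℕ} (h : ¬ p ∣ Nat.card H) {g : G} (hg : g ∈ H) :
    ¬ p ∣ orderOf g := fun hd =>
  h (hd.trans (by simpa [Subgroup.orderOf_coe] using orderOf_dvd_natCard (⟨g, hg⟩ : H)))

variable {p : ℕ} [Finite G] [Finite Ω] [FaithfulSMul G Ω]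

theorem Setup.not_dvd_two_point (s : Setup G Ω p) {b : Ω} (hb : b ≠ s.a) :
    ¬ p ∣ Nat.card ↥(stabilizer G s.a ⊓ stabilizer G b) := by
  classical
  haveI := Fact.mk s.prime
  haveI := Fintype.ofFinite Ω
  intro hdvd
  set H := stabilizer G s.a ⊓ stabilizer G b with hH
  set X : Set G := {g | g ∈ H ∧ ∃ k, g ^ p ^ k = 1} with hX
  set W := Subgroup.closure X with hW
  have hWH : W ≤ H := (Subgroup.closure_le _).2 fun g hg => hg.1
  obtain ⟨w, hw⟩ := exists_prime_orderOf_dvd_card' (G := H) p hdvd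
  have hwW : (w : G) ∈ W := Subgroup.subset_closure ⟨w.2, 1, by
    rw [pow_one, ← hw, ← Subgroup.orderOf_coe, pow_orderOf_eq_one]⟩
  have hW1 : W ≠ ⊥ := fun e => by
    rw [e, Subgroup.mem_bot] at hwW
    rw [← Subgroup.orderOf_coe, hwW, orderOf_one] at hw
    exact s.prime.one_lt.ne hw
  have hfix : ∀ z, s.S.rel b z → z ∈ fix Ω W := by
    intro z hz
    have hle : W ≤ stabilizer G z := (Subgroup.closure_le _).2 fun g hg => by
      obtain ⟨⟨hga, hgb⟩, k, hk⟩ := hg
      have hp : IsPGroup p (Subgroup.zpowers g) := by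
        obtain ⟨i, -, hi⟩ := (Nat.dvd_prime_pow s.prime).1 (orderOf_dvd_of_pow_eq_one hk)
        exact IsPGroup.of_card (n := i) (by rw [Nat.card_zpowers, hi])
      obtain ⟨n, hn⟩ := hp.card_orbit z
      show g • z = z
      by_contra hgz
      have hstab : ∀ h : Subgroup.zpowers g, (h : G) • s.a = s.a ∧ (h : G) • b = b := fun h =>
        ⟨(Subgroup.zpowers_le.2 (show g ∈ stabilizer G s.a from hga)) h.2,
          (Subgroup.zpowers_le.2 (show g ∈ stabilizer G b from hgb)) h.2⟩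
      have hzb : z ≠ b := fun e => hgz (e ▸ hgb)
      have hsub : orbit (Subgroup.zpowers g) z ⊆ {y | s.S.rel b y} \ {b} := by
        rintro _ ⟨h, rfl⟩
        refine ⟨?_, fun e => hzb (MulAction.injective (h : G) (e.trans (hstab h).2.symm))⟩
        have := s.S.inv _ (hstab h).1 _ _ hz
        rwa [(hstab h).2] at this
      have hlt : Nat.card (orbit (Subgroup.zpowers g) z) < p := by
        have hp2 : Set.ncard {y | s.S.rel b y} = p := by
          rw [← Nat.card_coe_set_eq]; exact s.S.card b hb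
        have h1 := Set.ncard_le_ncard hsub
        rw [Set.ncard_sdiff_singleton_of_mem (show b ∈ {y | s.S.rel b y} from s.S.refl b hb), hp2] at h1
        rw [Nat.card_coe_set_eq]
        have := s.three_le
        omega
      rw [hn] at hlt
      rcases n with _ | n
      · rw [pow_zero] at hn
        haveI := (Nat.card_eq_one_iff_unique.1 hn).1
        have := Subsingleton.elim (⟨g • z, ⟨⟨g, Subgroup.mem_zpowers g⟩, rfl⟩⟩ : orbit (Subgroup.zpowers g) z)
          ⟨z, mem_orbit_self z⟩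
        exact hgz (congrArg Subtype.val this)
      · exact absurd hlt (not_lt.2 (Nat.le_self_pow (by omega) p))
    exact fun v hv => hle hv
  obtain ⟨c, hc, hcb⟩ : ∃ c, s.S.rel b c ∧ c ≠ b := by
    by_contra hcon
    haveI : Subsingleton {y // s.S.rel b y} := ⟨fun u v => Subtype.ext (by
      have h1 : u.1 = b := by by_contra h; exact hcon ⟨_, u.2, h⟩
      have h2 : v.1 = b := by by_contra h; exact hcon ⟨_, v.2, h⟩
      rw [h1, h2])⟩
    have := Finite.card_le_one_iff_subsingleton.2 (inferInstance : Subsingleton {y // s.S.rel b y})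
    rw [s.S.card b hb] at this
    have := s.three_le
    omega
  refine steiner_false s.prime s.three_le s.card s.two hb.symm hWH hW1 (fun g hg => ?_) (s.S.ne' hc)
    hcb (hfix c hc)
  refine Subgroup.eq_of_le_of_card_ge ?_ (by rw [card_conjSub])
  rw [conjSub, hW, MonoidHom.map_closure]
  refine (Subgroup.closure_le _).2 ?_
  rintro _ ⟨x, ⟨hx, k, hk⟩, rfl⟩
  refine Subgroup.subset_closure ⟨hg (Subgroup.mem_map_of_mem _ (Subgroup.subset_closure ⟨hx, k, hk⟩)), k, ?_⟩
  rw [← map_pow, hk, map_one]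

theorem Setup.card_stab (s : Setup G Ω p) {b : Ω} (hb : b ≠ s.a) :
    Nat.card (stabilizer G s.a) = p ^ 2 * Nat.card ↥(stabilizer G s.a ⊓ stabilizer G b) := by
  classical
  haveI := Fintype.ofFinite Ω
  have h2 := s.two
  rw [MulAction.is_two_pretransitive_iff] at h2
  have horb : orbit (stabilizer G s.a) b = {x | x ≠ s.a} := by
    ext x
    constructor
    · rintro ⟨g, rfl⟩
      exact smul_ne_of_fix g.2 hb
    · intro hx
      obtain ⟨g, hga, hgb⟩ := h2 hb.symm (Ne.symm hx)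
      exact ⟨⟨g, hga⟩, hgb⟩
  rw [← (stabilizer (stabilizer G s.a) b).index_mul_card, MulAction.index_stabilizer, horb]
  congr 1
  · rw [show {x : Ω | x ≠ s.a} = Set.univ \ {s.a} by ext x; simp,
      Set.ncard_sdiff_singleton_of_mem (Set.mem_univ _), Set.ncard_univ, s.card, Nat.add_sub_cancel]
  · exact Nat.card_congr
      { toFun := fun g => ⟨g.1.1, g.1.2, g.2⟩
        invFun := fun g => ⟨⟨g.1, g.2.1⟩, g.2.2⟩
        left_inv := fun g => rfl
        right_inv := fun g => rfl }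

theorem Setup.exists_data (s : Setup G Ω p) : ∃ d : Data G Ω p, d.toSetup = s := by
  classical
  haveI := Fact.mk s.prime
  haveI := Fintype.ofFinite Ω
  obtain ⟨b, hb⟩ : ∃ b : Ω, b ≠ s.a := by
    by_contra hcon
    haveI : Subsingleton Ω := ⟨fun x y => by
      have h1 : x = s.a := by by_contra h; exact hcon ⟨x, h⟩
      have h2 : y = s.a := by by_contra h; exact hcon ⟨y, h⟩
      rw [h1, h2]⟩
    have := Finite.card_le_one_iff_subsingleton.2 (inferInstance : Subsingleton Ω)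
    rw [s.card] at this
    have := pow_pos s.prime.pos 2
    omega
  obtain ⟨P0⟩ : Nonempty (Sylow p (stabilizer G s.a)) := inferInstance
  have hP0 : Nat.card P0 = p ^ 2 := by
    rw [P0.card_eq_multiplicity, s.card_stab hb, Nat.factorization_mul (pow_ne_zero _ s.prime.ne_zero)
      Nat.card_pos.ne', Finsupp.add_apply, Nat.factorization_eq_zero_of_not_dvd (s.not_dvd_two_point hb),
      s.prime.factorization_pow]
    simp
  set P := (P0 : Subgroup (stabilizer G s.a)).map (stabilizer G s.a).subtype with hP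
  have hPc : Nat.card P = p ^ 2 := by
    rw [hP, Nat.card_congr (Subgroup.equivMapOfInjective _ _ (Subgroup.subtype_injective _)).symm.toEquiv]
    exact hP0
  have hPle : ∀ g ∈ P, g • s.a = s.a := by
    rintro _ ⟨g, -, rfl⟩
    exact g.2
  have hfree : ∀ g ∈ P, ∀ x, x ≠ s.a → g • x = x → g = 1 := by
    intro g hg x hx hgx
    have h1 : ¬ p ∣ orderOf g := not_dvd_orderOf (s.not_dvd_two_point hx) ⟨hPle g hg, hgx⟩
    have h2 : orderOf g ∣ p ^ 2 := by
      rw [← hPc]
      simpa [Subgroup.orderOf_coe] using orderOf_dvd_natCard (⟨g, hg⟩ : P)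
    obtain ⟨i, -, hi⟩ := (Nat.dvd_prime_pow s.prime).1 h2
    rcases i with _ | i
    · exact orderOf_eq_one_iff.1 hi
    · exact absurd (hi ▸ dvd_pow_self p (by omega)) h1
  refine ⟨{ s with
    b := b, hba := hb, P := P, P_le := hPle, P_card := hPc,
    P_comm := fun g hg h hh => congrArg Subtype.val
      ((IsPGroup.commutative_of_card_eq_prime_sq hPc) ⟨g, hg⟩ ⟨h, hh⟩),
    P_free := hfree, P_trans := ?_, not_dvd := fun x hx => s.not_dvd_two_point hx }, rfl⟩
  intro x hx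
  let f : P → {y : Ω // y ≠ s.a} := fun g => ⟨(g : G) • b, smul_ne_of_fix (hPle g g.2) hb⟩
  have hf : Function.Injective f := by
    intro g h e
    have e' : (g : G) • b = (h : G) • b := congrArg Subtype.val e
    have := hfree _ (mul_mem (inv_mem h.2) g.2) b hb (by rw [mul_smul, e', inv_smul_smul])
    exact Subtype.ext (inv_mul_eq_one.1 this).symm
  have hcard : Nat.card P = Nat.card {y : Ω // y ≠ s.a} := by
    rw [hPc, Nat.card_eq_fintype_card (α := {y : Ω // y ≠ s.a}), Fintype.card_subtype_compl,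
      Fintype.card_subtype_eq, ← Nat.card_eq_fintype_card, s.card, Nat.add_sub_cancel]
  obtain ⟨g, hg⟩ := ((Nat.bijective_iff_injective_and_card f).2 ⟨hf, hcard⟩).surjective ⟨x, hx⟩
  exact ⟨g, g.2, congrArg Subtype.val hg⟩

namespace Data

variable (d : Data G Ω p)

/-- A subgroup of the stabiliser of `a` normalised by some elements of `P`: if one of its elements
agrees with one of them at a point, that element lies in the subgroup. -/
theorem mem_of_smul_eq {N : Subgroup G} (hNa : ∀ n ∈ N, n • d.a = d.a) {g n : G} (hg : g ∈ d.P)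
    (hgN : ∀ m ∈ N, g * m * g⁻¹ ∈ N) (hn : n ∈ N) {x : Ω} (hx : x ≠ d.a) (h : n • x = g • x) :
    g ∈ N := by
  set m := g⁻¹ * n with hm
  have hmx : m • x = x := by rw [hm, mul_smul, h, inv_smul_smul]
  have hma : m • d.a = d.a := by rw [hm, mul_smul, hNa n hn, inv_fix (d.P_le g hg)]
  have hk : ∀ k : ℕ, g ^ k * m ^ k ∈ N := by
    intro k
    induction k with
    | zero => simp
    | succ k ih =>
      rw [show g ^ (k + 1) * m ^ (k + 1) = (g * (g ^ k * m ^ k) * g⁻¹) * (g * m) by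
        rw [pow_succ', pow_succ]; group]
      exact mul_mem (hgN _ ih) (by rwa [hm, mul_inv_cancel_left])
  have h1 := hk (orderOf m)
  rw [pow_orderOf_eq_one, mul_one] at h1
  have h2 : Nat.Coprime (orderOf m) (orderOf g) := by
    refine (Nat.Coprime.pow_right 2 ?_).coprime_dvd_right (show orderOf g ∣ p ^ 2 from ?_)
    · exact ((d.prime.coprime_iff_not_dvd).2 (not_dvd_orderOf (d.not_dvd x hx) ⟨hma, hmx⟩)).symm
    · rw [← d.P_card]
      simpa [Subgroup.orderOf_coe] using orderOf_dvd_natCard (⟨g, hg⟩ : d.P)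
  obtain ⟨e, he⟩ := exists_pow_eq_self_of_coprime h2
  exact he ▸ pow_mem h1 e

/-- A `p`-subgroup of the stabiliser of `a` containing `P` is equal to it. -/
theorem eq_of_le {R : Subgroup G} (hR : IsPGroup p R) (hRa : ∀ g ∈ R, g • d.a = d.a) (hle : d.P ≤ R) :
    R = d.P := by
  haveI := Fact.mk d.prime
  refine (Subgroup.eq_of_le_of_card_ge hle ?_).symm
  obtain ⟨k, hk⟩ := hR.exists_card_eq
  have h1 : p ^ k ∣ Nat.card (stabilizer G d.a) := hk ▸ Subgroup.card_dvd_of_le hRa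
  rw [d.toSetup.card_stab d.hba] at h1
  rw [d.P_card, hk]
  have hcop : Nat.Coprime (p ^ k) (Nat.card ↥(stabilizer G d.a ⊓ stabilizer G d.b)) :=
    ((d.prime.coprime_iff_not_dvd).2 (d.not_dvd d.b d.hba)).pow_left k
  exact Nat.le_of_dvd (pow_pos d.prime.pos 2) (hcop.dvd_of_dvd_mul_right h1)

/-- The kernel of the action on the blocks. -/
def ker : Subgroup G where
  carrier := {g | g • d.a = d.a ∧ ∀ x, x ≠ d.a → d.S.rel x (g • x)}
  one_mem' := ⟨one_smul _ _, fun x hx => by rw [one_smul]; exact d.S.refl x hx⟩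
  mul_mem' := fun {g h} hg hh => ⟨by rw [mul_smul, hh.1, hg.1], fun x hx => by
    rw [mul_smul]
    exact d.S.trans _ _ _ (hh.2 x hx) (hg.2 _ (smul_ne_of_fix hh.1 hx))⟩
  inv_mem' := fun {g} hg => ⟨inv_fix hg.1, fun x hx => by
    have := hg.2 _ (smul_ne_of_fix (inv_fix hg.1) hx)
    rw [smul_inv_smul] at this
    exact d.S.symm _ _ this⟩

theorem mem_ker {g : G} : g ∈ d.ker ↔ g • d.a = d.a ∧ ∀ x, x ≠ d.a → d.S.rel x (g • x) := Iff.rfl

theorem ker_conj {g k : G} (hg : g • d.a = d.a) (hk : k ∈ d.ker) : g * k * g⁻¹ ∈ d.ker := by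
  refine ⟨by rw [mul_smul, mul_smul, inv_fix hg, hk.1, hg], fun x hx => ?_⟩
  have := d.S.inv g hg _ _ (hk.2 (g⁻¹ • x) (smul_ne_of_fix (inv_fix hg) hx))
  rwa [smul_inv_smul, smul_smul, smul_smul] at this

/-- The elements of `P` fixing every block. -/
def Q : Subgroup G := d.P ⊓ d.ker

theorem mem_Q_of_rel {g : G} (hg : g ∈ d.P) (h : d.S.rel d.b (g • d.b)) : g ∈ d.Q := by
  refine ⟨hg, d.P_le g hg, fun x hx => ?_⟩
  obtain ⟨k, hk, rfl⟩ := d.P_trans x hx
  have := d.S.inv k (d.P_le k hk) _ _ h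
  rwa [← mul_smul, d.P_comm k hk g hg, mul_smul] at this

theorem card_Q : Nat.card d.Q = p := by
  refine Eq.trans ?_ (d.S.card d.b d.hba)
  refine Nat.card_eq_of_bijective (fun g => ⟨(g : G) • d.b, g.2.2.2 d.b d.hba⟩) ⟨?_, ?_⟩
  · intro g h e
    have e' : (g : G) • d.b = (h : G) • d.b := congrArg Subtype.val e
    have := d.P_free _ (mul_mem (inv_mem h.2.1) g.2.1) d.b d.hba (by rw [mul_smul, e', inv_smul_smul])
    exact Subtype.ext (inv_mul_eq_one.1 this).symm
  · rintro ⟨y, hy⟩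
    obtain ⟨g, hg, rfl⟩ := d.P_trans y (d.S.ne' hy)
    exact ⟨⟨g, d.mem_Q_of_rel hg hy⟩, rfl⟩

theorem exists_mem_Q {x y : Ω} (h : d.S.rel x y) : ∃ g ∈ d.Q, g • x = y := by
  obtain ⟨k, hk, rfl⟩ := d.P_trans x (d.S.ne _ _ h)
  obtain ⟨l, hl, rfl⟩ := d.P_trans y (d.S.ne' h)
  refine ⟨l * k⁻¹, d.mem_Q_of_rel (mul_mem hl (inv_mem hk)) ?_, by rw [mul_smul, inv_smul_smul]⟩
  have := d.S.inv k⁻¹ (inv_fix (d.P_le k hk)) _ _ h
  rwa [inv_smul_smul, ← mul_smul, d.P_comm k⁻¹ (inv_mem hk) l hl] at this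

theorem exists_Q_gen : ∃ q ∈ d.Q, q ≠ 1 ∧ ∀ g ∈ d.Q, ∃ i : ℕ, q ^ i = g := by
  haveI := Fact.mk d.prime
  haveI : IsCyclic d.Q := isCyclic_of_prime_card d.card_Q
  obtain ⟨⟨q, hq⟩, hgen⟩ := IsCyclic.exists_monoid_generator (α := d.Q)
  refine ⟨q, hq, fun e => ?_, fun g hg => ?_⟩
  · have : Nat.card d.Q ≤ 1 := by
      haveI : Subsingleton d.Q := ⟨fun u v => by
        obtain ⟨i, hi⟩ := hgen u
        obtain ⟨j, hj⟩ := hgen v
        rw [← hi, ← hj]
        exact Subtype.ext (by simp [e])⟩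
      exact Finite.card_le_one_iff_subsingleton.2 inferInstance
    rw [d.card_Q] at this
    exact absurd this (not_le.2 d.prime.one_lt)
  · obtain ⟨i, hi⟩ := hgen ⟨g, hg⟩
    exact ⟨i, congrArg Subtype.val hi⟩

/-- The kernel acts faithfully on each block. -/
theorem eq_one_of_fix_block {k : G} (hk : k ∈ d.ker) {x : Ω} (hx : x ≠ d.a)
    (hfix : ∀ z, d.S.rel x z → k • z = z) : k = 1 := by
  set N := d.ker ⊓ d.S.fixBlock x with hN
  have hkN : k ∈ N := ⟨hk, d.S.mem_fixBlock.2 ⟨hk.1, hfix⟩⟩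
  have hNa : ∀ n ∈ N, n • d.a = d.a := fun n hn => hn.1.1
  refine eq_of_smul_eq_smul (α := Ω) fun y => ?_
  rw [one_smul]
  by_cases hy : y = d.a
  · rw [hy, hk.1]
  obtain ⟨g, hgQ, hg⟩ := d.exists_mem_Q (hk.2 y hy)
  have hgN : g ∈ N := d.mem_of_smul_eq hNa hgQ.1 (fun m hm => ⟨d.ker_conj (d.P_le g hgQ.1) hm.1, by
      have h1 : g * m * g⁻¹ ∈ conjSub g (d.S.fixBlock x) := mem_conjSub.2 (by simpa [mul_assoc] using hm.2)
      rw [d.S.conj_fixBlock (d.P_le g hgQ.1)] at h1
      obtain ⟨ha, hz⟩ := d.S.mem_fixBlock.1 h1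
      exact d.S.mem_fixBlock.2 ⟨ha, fun z hz' => hz z (d.S.trans _ _ _ (d.S.symm _ _ (hgQ.2.2 x hx)) hz')⟩⟩)
    hkN hy hg.symm
  have hg1 : g = 1 := d.P_free g hgQ.1 x hx ((d.S.mem_fixBlock.1 hgN.2).2 x (d.S.refl x hx))
  rw [hg1, one_smul] at hg
  exact hg.symm

end Data

end CfsgLib.DegreePSquare
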