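/-
Imprimitive point stabilisers in degree `p ^ 2 + 1`: the case that the `p`-elements fixing all
blocks do not form a normal subgroup.
-/
import Mathlib
import Cfsg.Agent.Lib.DegreePSquare.Regular
import Cfsg.Agent.Lib.DegreePSquare.Convolution
import Cfsg.Agent.S0675

set_option autoImplicit false

namespace CfsgLib.DegreePSquare

open MulAction

variable {G Ω : Type*} [Group G] [MulAction G Ω] [Finite G] [Finite Ω] [FaithfulSMul G Ω] {p : ℕ}

namespace Data

variable (d : Data G Ω p)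

theorem exists_conj_le_P {R : Subgroup G} (hR : IsPGroup p R) (hRa : ∀ g ∈ R, g • d.a = d.a) :
    ∃ c : G, c • d.a = d.a ∧ ∀ g ∈ R, c * g * c⁻¹ ∈ d.P := by
  haveI := Fact.mk d.prime
  set A := stabilizer G d.a
  have hPA : d.P ≤ A := d.P_le
  have hpart : Nat.card (d.P.subgroupOf A) = p ^ (Nat.card A).factorization p := by
    rw [Nat.card_congr (Subgroup.subgroupOfEquivOfLe hPA).toEquiv, d.P_card, d.toSetup.card_stab d.hba,
      Nat.factorization_mul (pow_ne_zero _ d.prime.ne_zero) Nat.card_pos.ne', Finsupp.add_apply,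
      Nat.factorization_eq_zero_of_not_dvd (d.not_dvd d.b d.hba), d.prime.factorization_pow]
    simp
  set P0 : Sylow p A := Sylow.ofCard _ hpart
  obtain ⟨Q0, hQ0⟩ := (hR.comap_of_injective A.subtype A.subtype_injective).exists_le_sylow
  obtain ⟨c, hc⟩ := MulAction.exists_smul_eq A Q0 P0
  refine ⟨c, c.2, fun g hg => ?_⟩
  have hgQ : (⟨g, hRa g hg⟩ : A) ∈ Q0 := hQ0 hg
  have h1 : c * ⟨g, hRa g hg⟩ * c⁻¹ ∈ c • Q0 := by
    rw [← SetLike.mem_coe, ← Sylow.coe_coe, Sylow.coe_subgroup_smul,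
      Subgroup.coe_pointwise_smul]
    exact ⟨_, hgQ, rfl⟩
  rw [hc] at h1
  exact h1

/-- If the kernel normalises `Q` then so does the stabiliser of `a`. -/
theorem Q_normal_of_ker (h : ∀ k ∈ d.ker, ∀ x ∈ d.Q, k * x * k⁻¹ ∈ d.Q) {g : G} (hg : g • d.a = d.a)
    {x : G} (hx : x ∈ d.Q) : g * x * g⁻¹ ∈ d.Q := by
  haveI := Fact.mk d.prime
  set y := g * x * g⁻¹ with hy
  have hyK : y ∈ d.ker := d.ker_conj hg hx.2
  have hQp : IsPGroup p d.Q := IsPGroup.of_card (n := 1) (by rw [d.card_Q, pow_one])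
  have hxp : x ^ p = 1 := by
    have h0 := pow_card_eq_one' (G := d.Q) (x := ⟨x, hx⟩)
    rw [d.card_Q] at h0
    exact congrArg Subtype.val h0
  have hyp : IsPGroup p (Subgroup.zpowers y) := by
    have hd : orderOf y ∣ p := orderOf_dvd_of_pow_eq_one (by rw [hy, conj_pow, hxp, mul_one, mul_inv_cancel])
    rcases (Nat.dvd_prime d.prime).1 hd with e | e
    · exact IsPGroup.of_card (n := 0) (by rw [Nat.card_zpowers, e, pow_zero])
    · exact IsPGroup.of_card (n := 1) (by rw [Nat.card_zpowers, e, pow_one])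
  have hnorm : Subgroup.zpowers y ≤ Subgroup.normalizer (d.Q : Set G) := by
    rw [Subgroup.zpowers_le]
    refine Subgroup.mem_normalizer_iff.2 fun z => ⟨fun hz => h y hyK z hz, fun hz => ?_⟩
    have := h y⁻¹ (inv_mem hyK) _ hz
    simpa [mul_assoc] using this
  set R := Subgroup.zpowers y ⊔ d.Q with hR
  have hRp : IsPGroup p R := hyp.to_sup_of_normal_right' hQp hnorm
  have hRK : R ≤ d.ker := sup_le (Subgroup.zpowers_le.2 hyK) inf_le_right
  obtain ⟨c, hca, hc⟩ := d.exists_conj_le_P hRp (fun z hz => (hRK hz).1)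
  have hle : conjSub c R ≤ d.Q := fun z hz => by
    have h1 : c⁻¹ * z * c ∈ R := mem_conjSub.1 hz
    have h2 : z = c * (c⁻¹ * z * c) * c⁻¹ := by group
    rw [h2]
    exact ⟨hc _ h1, d.ker_conj hca (hRK h1)⟩
  have hcard := Subgroup.card_le_of_le hle
  rw [card_conjSub] at hcard
  have := Subgroup.eq_of_le_of_card_ge (le_sup_right : d.Q ≤ R) hcard
  rw [this]
  exact (le_sup_left : Subgroup.zpowers y ≤ R) (Subgroup.mem_zpowers y)

variable (hnn : ¬ ∀ k ∈ d.ker, ∀ x ∈ d.Q, k * x * k⁻¹ ∈ d.Q)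
include hnn

/-- The kernel is doubly transitive on each block. -/
theorem ker_two_transitive {z z' : Ω} (hz : d.S.rel d.b z) (hz' : d.S.rel d.b z') (hzb : z ≠ d.b)
    (hz'b : z' ≠ d.b) : ∃ k ∈ d.ker, k • d.b = d.b ∧ k • z = z' := by
  classical
  haveI := Fintype.ofFinite Ω
  let C := {y : Ω // d.S.rel d.b y}
  letI : MulAction d.ker C :=
    { smul := fun k y => ⟨(k : G) • (y : Ω), d.S.trans _ _ _ y.2 (k.2.2 _ (d.S.ne' y.2))⟩
      one_smul := fun y => Subtype.ext (one_smul G (y : Ω))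
      mul_smul := fun k l y => Subtype.ext (mul_smul (k : G) (l : G) (y : Ω)) }
  have hcoe : ∀ (k : d.ker) (y : C), ((k • y : C) : Ω) = (k : G) • (y : Ω) := fun _ _ => rfl
  set φ := MulAction.toPermHom d.ker C
  have hφ : Function.Injective φ := by
    rw [injective_iff_map_eq_one]
    intro k hk
    refine Subtype.ext (d.eq_one_of_fix_block k.2 d.hba fun y hy => ?_)
    exact congrArg Subtype.val (DFunLike.congr_fun hk (⟨y, hy⟩ : C))
  haveI : IsPretransitive φ.range C := ⟨fun x y => by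
    obtain ⟨g, hg, hgxy⟩ := d.exists_mem_Q (d.S.trans _ _ _ (d.S.symm _ _ x.2) y.2)
    exact ⟨⟨φ ⟨g, hg.2⟩, ⟨_, rfl⟩⟩, Subtype.ext hgxy⟩⟩
  have hC : (Fintype.card C).Prime := by
    rw [← Nat.card_eq_fintype_card, d.S.card d.b d.hba]; exact d.prime
  rcases Cfsg.Agent.S0675.result hC φ.range with hsol | h2
  · refine absurd (fun k hk x hx => ?_) hnn
    haveI := hsol
    haveI : Group.IsSolvable d.ker :=
      solvable_of_solvable_injective (f := φ.rangeRestrict) (fun u v h => hφ (congrArg Subtype.val h))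
    obtain ⟨N, hN⟩ := Group.IsSolvable.solvable (G := d.ker)
    have hnt : d.Q ≤ d.ker := inf_le_right
    have hne : Nontrivial d.ker := by
      obtain ⟨q, hq, hq1, -⟩ := d.exists_Q_gen
      exact ⟨⟨⟨q, hnt hq⟩, 1, fun e => hq1 (congrArg Subtype.val e)⟩⟩
    have hex : ∃ n, derivedSeries d.ker n = ⊥ := ⟨N, hN⟩
    obtain ⟨n, hn⟩ : ∃ n, Nat.find hex = n + 1 := Nat.exists_eq_succ_of_ne_zero fun e => by
      have := Nat.find_spec hex
      rw [e, derivedSeries_zero] at this
      exact (top_ne_bot (α := Subgroup d.ker)) this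
    set A := (derivedSeries d.ker n).map d.ker.subtype with hA
    have hA1 : derivedSeries d.ker n ≠ ⊥ := Nat.find_min hex (by omega)
    have hAcomm : ∀ u ∈ A, ∀ v ∈ A, u * v = v * u := by
      rintro _ ⟨u, hu, rfl⟩ _ ⟨v, hv, rfl⟩
      have h0 : derivedSeries d.ker (n + 1) = ⊥ := hn ▸ Nat.find_spec hex
      rw [derivedSeries_succ] at h0
      have := h0 ▸ Subgroup.commutator_mem_commutator hu hv
      rw [Subgroup.mem_bot, commutatorElement_eq_one_iff_mul_comm] at this
      rw [← map_mul, this, map_mul]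
    have hAn : ∀ k ∈ d.ker, ∀ u ∈ A, k * u * k⁻¹ ∈ A := by
      rintro k hk _ ⟨u, hu, rfl⟩
      exact ⟨⟨k, hk⟩ * u * ⟨k, hk⟩⁻¹, (derivedSeries_normal d.ker n).conj_mem u hu ⟨k, hk⟩, rfl⟩
    have hAK : A ≤ d.ker := Subgroup.map_subtype_le _
    have hmeet : ∀ u ∈ A, u ≠ 1 → ∃ g ∈ d.Q, g ≠ 1 ∧ g ∈ A := by
      intro u hu hu1
      obtain ⟨y, hy, hy'⟩ : ∃ y, d.S.rel d.b y ∧ u • y ≠ y := by
        by_contra hcon
        exact hu1 (d.eq_one_of_fix_block (hAK hu) d.hba fun y hy => by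
          by_contra h; exact hcon ⟨y, hy, h⟩)
      obtain ⟨g, hg, hgy⟩ := d.exists_mem_Q ((hAK hu).2 y (d.S.ne' hy))
      refine ⟨g, hg, fun e => hy' (by rw [e, one_smul] at hgy; exact hgy.symm),
        d.mem_of_smul_eq (fun v hv => (hAK hv).1) hg.1 (fun v hv => hAn g hg.2 v hv) hu (d.S.ne' hy) hgy.symm⟩
    obtain ⟨u, hu, hu1⟩ := (derivedSeries d.ker n).bot_or_exists_ne_one.resolve_left hA1
    obtain ⟨g, hgQ, hg1, hgA⟩ := hmeet u ⟨u, hu, rfl⟩ (fun e => hu1 (Subtype.ext e))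
    have hQA : d.Q ≤ A := by
      haveI := Fact.mk d.prime
      have hcard : Nat.card (d.Q ⊓ A : Subgroup G) ∣ p := by
        have h := Subgroup.card_dvd_of_le (inf_le_left : d.Q ⊓ A ≤ d.Q)
        rwa [d.card_Q] at h
      rcases (Nat.dvd_prime d.prime).1 hcard with e | e
      · haveI := (Nat.card_eq_one_iff_unique.1 e).1
        exact absurd (congrArg Subtype.val (Subsingleton.elim (⟨g, hgQ, hgA⟩ : (d.Q ⊓ A : Subgroup G)) 1)) hg1
      · exact inf_eq_left.1 (Subgroup.eq_of_le_of_card_ge inf_le_left (by rw [e, d.card_Q]))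
    have hAQ : A ≤ d.Q := by
      intro v hv
      obtain ⟨g, hg, hgb⟩ := d.exists_mem_Q ((hAK hv).2 d.b d.hba)
      have h1 : g⁻¹ * v = 1 := by
        refine d.eq_one_of_fix_block (mul_mem (inv_mem hg.2) (hAK hv)) d.hba fun y hy => ?_
        obtain ⟨h, hh, rfl⟩ := d.exists_mem_Q hy
        have hgv : (g⁻¹ * v) • d.b = d.b := by rw [mul_smul, ← hgb, inv_smul_smul]
        rw [← mul_smul, show g⁻¹ * v * h = h * (g⁻¹ * v) by
          exact hAcomm _ (mul_mem (hQA (inv_mem hg)) hv) _ (hQA hh), mul_smul, hgv]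
      rw [inv_mul_eq_one] at h1
      exact h1 ▸ hg
    exact hAQ (hAn k hk x (hQA hx))
  · rw [MulAction.is_two_pretransitive_iff] at h2
    obtain ⟨⟨_, k, rfl⟩, hkb, hkz⟩ := h2 (a := (⟨d.b, d.S.refl _ d.hba⟩ : C)) (b := ⟨z, hz⟩)
      (c := ⟨d.b, d.S.refl _ d.hba⟩) (d := ⟨z', hz'⟩) (fun e => hzb (congrArg Subtype.val e).symm)
      (fun e => hz'b (congrArg Subtype.val e).symm)
    exact ⟨k, k.2, congrArg Subtype.val hkb, congrArg Subtype.val hkz⟩

omit hnn in
theorem exists_r : ∃ r ∈ d.P, r ∉ d.Q ∧ r ^ p ∈ d.Q ∧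
    ∀ g ∈ d.P, ∃ i : ℕ, i < p ∧ (r ^ i)⁻¹ * g ∈ d.Q := by
  haveI := Fact.mk d.prime
  have hQP : d.Q ≤ d.P := inf_le_left
  obtain ⟨r, hr, hrQ⟩ : ∃ r ∈ d.P, r ∉ d.Q := by
    by_contra! hcon
    have h := Subgroup.card_le_of_le (show d.P ≤ d.Q from hcon)
    rw [d.P_card, d.card_Q] at h
    have := d.three_le
    nlinarith
  haveI : (d.Q.subgroupOf d.P).Normal := ⟨fun n hn g => by
    rwa [show g * n * g⁻¹ = n by
      rw [show g * n = n * g from Subtype.ext (d.P_comm _ g.2 _ n.2)]; group]⟩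
  have hindex : (d.Q.subgroupOf d.P).index = p := by
    have h := (d.Q.subgroupOf d.P).index_mul_card
    rw [Nat.card_congr (Subgroup.subgroupOfEquivOfLe hQP).toEquiv, d.card_Q, d.P_card, pow_two] at h
    exact Nat.eq_of_mul_eq_mul_right d.prime.pos h
  have hrp : r ^ p ∈ d.Q := by
    have := (d.Q.subgroupOf d.P).pow_index_mem ⟨r, hr⟩
    rw [hindex] at this
    exact this
  refine ⟨r, hr, hrQ, hrp, fun g hg => ?_⟩
  set π := QuotientGroup.mk' (d.Q.subgroupOf d.P)
  haveI : IsCyclic (d.P ⧸ d.Q.subgroupOf d.P) := isCyclic_of_prime_card (by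
    rw [← Subgroup.index_eq_card, hindex])
  have hne : π ⟨r, hr⟩ ≠ 1 := fun e => hrQ (Subgroup.mem_subgroupOf.1 ((QuotientGroup.eq_one_iff _).1 e))
  have hqc : Nat.card (d.P ⧸ d.Q.subgroupOf d.P) = p := by rw [← Subgroup.index_eq_card, hindex]
  have hord : orderOf (π ⟨r, hr⟩) = p := orderOf_eq_prime (by
    have h0 := pow_card_eq_one' (G := d.P ⧸ d.Q.subgroupOf d.P) (x := π ⟨r, hr⟩)
    rwa [hqc] at h0) hne
  classical
  obtain ⟨i, hi, hi'⟩ : ∃ i, i < p ∧ π ⟨r, hr⟩ ^ i = π ⟨g, hg⟩ := by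
    have htop : Subgroup.zpowers (π ⟨r, hr⟩) = ⊤ := Subgroup.eq_top_of_card_eq _ (by
      rw [Nat.card_zpowers, hord, hqc])
    obtain ⟨i, hi⟩ := mem_zpowers_iff_mem_range_orderOf.1 (htop ▸ Subgroup.mem_top (π ⟨g, hg⟩)) |>
      Finset.mem_image.1
    exact ⟨i, hord ▸ Finset.mem_range.1 hi.1, hi.2⟩
  refine ⟨i, hi, ?_⟩
  rw [← map_pow] at hi'
  exact Subgroup.mem_subgroupOf.1 (QuotientGroup.eq.1 hi')

/-- The stabiliser of a point in the kernel fixes a point in the next block. -/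
theorem exists_fixed_next {r : G} (hr : r ∈ d.P) (hrp : r ^ p ∈ d.Q) :
    ∃ z, d.S.rel (r • d.b) z ∧ ∀ k ∈ d.ker, k • d.b = d.b → k • z = z := by
  classical
  haveI := Fact.mk d.prime
  haveI : NeZero p := ⟨d.prime.ne_zero⟩
  obtain ⟨q, hq, hq1, hgen⟩ := d.exists_Q_gen
  have hqp : q ^ p = 1 := by
    have h0 := pow_card_eq_one' (G := d.Q) (x := ⟨q, hq⟩)
    rw [d.card_Q] at h0
    exact congrArg Subtype.val h0
  set E : ZMod p → G := fun j => q ^ j.val with hE
  have hEQ : ∀ j, E j ∈ d.Q := fun j => pow_mem hq _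
  have hEadd : ∀ i j, E (i + j) = E i * E j := fun i j => by
    simp only [hE]
    rw [← pow_add, ZMod.val_add, ← pow_eq_pow_mod _ hqp]
  have hEsur : ∀ g ∈ d.Q, ∃ j, E j = g := fun g hg => by
    obtain ⟨i, rfl⟩ := hgen g hg
    exact ⟨(i : ZMod p), by simp only [hE]; rw [ZMod.val_natCast, ← pow_eq_pow_mod _ hqp]⟩
  set x : ℕ → ZMod p → Ω := fun m j => (r ^ m * E j) • d.b with hx
  have hxa : ∀ m j, x m j ≠ d.a := fun m j =>
    smul_ne_of_fix (d.P_le _ (mul_mem (pow_mem hr _) (hEQ j).1)) d.hba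
  have hxinj : ∀ m, Function.Injective (x m) := by
    intro m i j h
    have h1 : E i • d.b = E j • d.b := by
      simp only [hx, mul_smul] at h
      exact MulAction.injective _ h
    have h2 := d.P_free _ (mul_mem (inv_mem (hEQ j).1) (hEQ i).1) d.b d.hba
      (by rw [mul_smul, h1, inv_smul_smul])
    rw [inv_mul_eq_one] at h2
    have hord : orderOf q = p := orderOf_eq_prime hqp hq1
    exact ZMod.val_injective p (pow_injOn_Iio_orderOf (by rw [hord]; exact ZMod.val_lt i)
      (by rw [hord]; exact ZMod.val_lt j) h2.symm)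
  have hblock : ∀ m j i, d.S.rel (x m i) (x m j) := by
    intro m j i
    have h1 := d.S.inv (r ^ m) (d.P_le _ (pow_mem hr m)) _ _
      (d.S.trans _ _ _ (d.S.symm _ _ ((hEQ i).2.2 d.b d.hba)) ((hEQ j).2.2 d.b d.hba))
    simp only [hx, mul_smul]
    exact h1
  have himage : ∀ k ∈ d.ker, ∀ m j, ∃ j', k • x m j = x m j' := by
    intro k hk m j
    obtain ⟨g, hg, hgx⟩ := d.exists_mem_Q (hk.2 _ (hxa m j))
    obtain ⟨i, rfl⟩ := hEsur g hg
    refine ⟨i + j, ?_⟩
    rw [← hgx]
    simp only [hx]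
    rw [hEadd, ← mul_smul, ← mul_assoc, d.P_comm _ (hEQ i).1 _ (pow_mem hr m), mul_assoc]
  -- the relation between consecutive blocks
  let D : ZMod p → ℤ := fun t => if ∃ k ∈ d.ker, k • x 0 0 = x 0 0 ∧ k • x 1 0 = x 1 t then 1 else 0
  have hD1 : ∀ t, D t = 1 ↔ ∃ k ∈ d.ker, k • x 0 0 = x 0 0 ∧ k • x 1 0 = x 1 t := fun t => by
    simp only [D]
    split <;> simp_all
  have hD01 : ∀ t, D t = 0 ∨ D t = 1 := fun t => by
    simp only [D]
    split <;> simp
  have hD : ∀ m j l, D (l - j) = 1 ↔ ∃ k ∈ d.ker, k • x m 0 = x m j ∧ k • x (m + 1) 0 = x (m + 1) l := by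
    intro m j l
    rw [hD1]
    have hrm : r ^ m • d.a = d.a := d.P_le _ (pow_mem hr m)
    have hshift : ∀ (i : ℕ) (t : ZMod p), r ^ m • x i t = x (m + i) t := fun i t => by
      simp only [hx, ← mul_smul, ← mul_assoc, ← pow_add]
    have hshiftE : ∀ (i : ℕ) (s t : ZMod p), E s • x i t = x i (s + t) := fun i s t => by
      simp only [hx, ← mul_smul, hEadd, ← mul_assoc]
      rw [d.P_comm _ (hEQ s).1 _ (pow_mem hr i)]
    constructor
    · rintro ⟨k, hk, h0, h1⟩
      refine ⟨E j * (r ^ m * k * (r ^ m)⁻¹), mul_mem (hEQ j).2 (d.ker_conj hrm hk), ?_, ?_⟩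
      · rw [mul_smul, mul_smul, mul_smul, show x m 0 = x (m + 0) 0 from rfl, ← hshift 0 0,
          inv_smul_smul, h0, hshift, hshiftE]
        simp
      · rw [mul_smul, mul_smul, mul_smul, ← hshift 1 0, inv_smul_smul, h1, hshift, hshiftE,
          add_sub_cancel]
    · rintro ⟨k, hk, h0, h1⟩
      refine ⟨(r ^ m)⁻¹ * (E (-j) * k) * r ^ m, ?_, ?_, ?_⟩
      · have := d.ker_conj (inv_fix hrm) (mul_mem (hEQ (-j)).2 hk)
        rwa [inv_inv] at this
      · rw [mul_smul, mul_smul, mul_smul, hshift, show x (m + 0) 0 = x m 0 from rfl, h0, hshiftE,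
          neg_add_cancel, inv_smul_eq_iff, hshift]
        rfl
      · rw [mul_smul, mul_smul, mul_smul, hshift, h1, hshiftE, inv_smul_eq_iff, hshift,
          show -j + l = l - j by abel]
  have hDinv : ∀ m j l j' l', ∀ k ∈ d.ker, k • x m j = x m j' → k • x (m + 1) l = x (m + 1) l' →
      D (l - j) = D (l' - j') := by
    intro m j l j' l' k hk hj hl
    have key : ∀ (j l j' l' : ZMod p) (k : G), k ∈ d.ker → k • x m j = x m j' →
        k • x (m + 1) l = x (m + 1) l' → D (l - j) = 1 → D (l' - j') = 1 := by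
      intro j l j' l' k hk hj hl h
      obtain ⟨k0, hk0, e0, e1⟩ := (hD m j l).1 h
      exact (hD m j' l').2 ⟨k * k0, mul_mem hk hk0, by rw [mul_smul, e0, hj], by rw [mul_smul, e1, hl]⟩
    rcases hD01 (l' - j') with h' | h'
    · rcases hD01 (l - j) with h | h
      · rw [h, h']
      · have := key j l j' l' k hk hj hl h; omega
    · rw [h', key j' l' j l k⁻¹ (inv_mem hk) (by rw [← hj, inv_smul_smul]) (by rw [← hl, inv_smul_smul]) h']
  have hconv : ∀ m j l j' l', ∀ k ∈ d.ker, k • x 0 j = x 0 j' → k • x m l = x m l' →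
      convPow D m (l - j) = convPow D m (l' - j') := by
    intro m
    induction m with
    | zero =>
      intro j l j' l' k _ hj hl
      have : l - j = 0 ↔ l' - j' = 0 := by
        rw [sub_eq_zero, sub_eq_zero]
        constructor
        · intro e; subst e; exact hxinj 0 (hl.symm.trans hj)
        · intro e; subst e; exact hxinj 0 (MulAction.injective k (hl.trans hj.symm))
      simp only [convPow, this]
    | succ m ih =>
      intro j l j' l' k hk hj hl
      choose σ hσ using himage k hk m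
      have hσb : Function.Bijective σ := Finite.injective_iff_bijective.1 fun u v h =>
        hxinj m (MulAction.injective k (by
          show k • x m u = k • x m v
          rw [hσ, hσ, h]))
      simp only [convPow]
      refine Fintype.sum_bijective (fun u => σ (u + j) - j') ?_ _ _ fun u => ?_
      · exact ((Equiv.subRight j').bijective.comp hσb).comp (Equiv.addRight j).bijective
      · have e1 := ih j (u + j) j' (σ (u + j)) k hk hj (hσ _)
        rw [add_sub_cancel_right] at e1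
        have e2 := hDinv m (u + j) l (σ (u + j)) l' k hk (hσ _) hl
        rw [e1, show l - j - u = l - (u + j) by abel, e2,
          show l' - j' - (σ (u + j) - j') = l' - σ (u + j) by abel]
  obtain ⟨s, hs⟩ := hEsur _ hrp
  have hxp : ∀ t, x p t = x 0 (s + t) := fun t => by
    simp only [hx]; rw [pow_zero, one_mul, hEadd, hs]
  have hx00 : x 0 0 = d.b := by simp [hx, hE]
  have hne : ∃ t, D t = 1 := ⟨0, (hD1 0).2 ⟨1, one_mem _, one_smul _ _, one_smul _ _⟩⟩
  have hne' : ∃ t, D t = 0 := by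
    by_contra hcon
    have hall : ∀ t, D t = 1 := fun t => (hD01 t).resolve_left fun h => hcon ⟨t, h⟩
    set Kb := d.ker ⊓ stabilizer G d.b with hKb
    have horb : orbit Kb (x 1 0) = Set.range (x 1) := by
      ext y
      constructor
      · rintro ⟨⟨k, hk, hkb⟩, rfl⟩
        obtain ⟨t, ht⟩ := himage k hk 1 0
        exact ⟨t, ht.symm⟩
      · rintro ⟨t, rfl⟩
        obtain ⟨k, hk, h0, h1⟩ := (hD1 t).1 (hall t)
        rw [hx00] at h0
        exact ⟨⟨k, hk, h0⟩, h1⟩
    have h1 : p ∣ Nat.card Kb := by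
      have h := (stabilizer Kb (x 1 0)).index_dvd_card
      rwa [MulAction.index_stabilizer, horb, Set.ncard_range_of_injective (hxinj 1), Nat.card_zmod] at h
    exact d.not_dvd d.b d.hba (h1.trans (Subgroup.card_dvd_of_le fun g hg => ⟨hg.1.1, hg.2⟩))
  obtain ⟨M, hM⟩ := const_off_point d.three_le D hD01 hne hne' (-s) fun t t' ht ht' => by
    have hst : ∀ u, u ≠ -s → x 0 (s + u) ≠ d.b := fun u hu e => hu (by
      have := hxinj 0 (e.trans hx00.symm)
      exact eq_neg_of_add_eq_zero_right this)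
    have hrel : ∀ u, d.S.rel d.b (x 0 u) := fun u => hx00 ▸ hblock 0 u 0
    obtain ⟨k, hk, hkb, hkt⟩ := d.ker_two_transitive hnn (hrel (s + t)) (hrel (s + t')) (hst t ht) (hst t' ht')
    have := hconv p 0 t 0 t' k hk (by rw [hx00, hkb]) (by rw [hxp, hxp, hkt])
    simpa using this
  refine ⟨x 1 M, ?_, fun k hk hkb => ?_⟩
  · have h := hblock 1 M 0
    have h10 : x 1 0 = r • d.b := by simp [hx, hE]
    rwa [h10] at h
  obtain ⟨M', hM'⟩ := himage k hk 1 M
  by_contra hmove
  have hMM : M' ≠ M := fun e => hmove (by rw [hM', e])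
  have hDM : D M = D M' := by
    have := hDinv 0 0 M 0 M' k hk (by rw [hx00, hkb]) hM'
    simpa using this
  have hall : ∀ t, D t = D M' := fun t => by
    by_cases h : t = M
    · rw [h, hDM]
    · exact hM t M' h hMM
  obtain ⟨t1, ht1⟩ := hne
  obtain ⟨t2, ht2⟩ := hne'
  have := hall t1
  have := hall t2
  omega

/-- The classes of points with equal stabiliser in the kernel form a second system. -/
theorem false_of_not_normal : False := by
  classical
  haveI := Fact.mk d.prime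
  obtain ⟨r, hr, hrQ, hrp, hrgen⟩ := d.exists_r
  obtain ⟨z1, hz1, hz1fix⟩ := d.exists_fixed_next hnn hr hrp
  set KS : Ω → Subgroup G := fun x => d.ker ⊓ stabilizer G x with hKS
  have hconjP : ∀ h ∈ d.P, ∀ x, conjSub h (KS x) = KS (h • x) := by
    intro h hh x
    ext g
    rw [mem_conjSub]
    constructor
    · rintro ⟨hk, hfix⟩
      refine ⟨?_, ?_⟩
      · have := d.ker_conj (d.P_le h hh) hk
        rwa [show h * (h⁻¹ * g * h) * h⁻¹ = g by group] at this
      · show g • h • x = h • x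
        have : h⁻¹ • g • h • x = x := by rw [← mul_smul, ← mul_smul]; simpa [mul_assoc] using hfix
        exact inv_smul_eq_iff.1 this
    · rintro ⟨hk, hfix⟩
      refine ⟨?_, ?_⟩
      · have := d.ker_conj (inv_fix (d.P_le h hh)) hk
        rwa [inv_inv] at this
      · show (h⁻¹ * g * h) • x = x
        rw [mul_smul, mul_smul, show g • h • x = h • x from hfix, inv_smul_smul]
  have hcard : ∀ x, x ≠ d.a → Nat.card (KS x) = Nat.card (KS d.b) := by
    intro x hx
    obtain ⟨h, hh, rfl⟩ := d.P_trans x hx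
    rw [← hconjP h hh d.b, card_conjSub]
  have hnext : ∀ x, x ≠ d.a → ∃ y, d.S.rel (r • x) y ∧ KS y = KS x := by
    intro x hx
    obtain ⟨h, hh, rfl⟩ := d.P_trans x hx
    refine ⟨h • z1, ?_, ?_⟩
    · rw [← mul_smul, d.P_comm r hr h hh, mul_smul]
      exact d.S.inv h (d.P_le h hh) _ _ hz1
    · have hle : KS d.b ≤ KS z1 := fun k hk => ⟨hk.1, hz1fix k hk.1 hk.2⟩
      have heq : KS d.b = KS z1 := Subgroup.eq_of_le_of_card_ge hle (le_of_eq (hcard z1 (d.S.ne' hz1)))
      rw [← hconjP h hh, ← hconjP h hh, heq]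
  have huniq : ∀ x y, d.S.rel x y → KS x = KS y → x = y := by
    intro x y hxy he
    by_contra hne
    obtain ⟨h, hh, rfl⟩ := d.P_trans x (d.S.ne _ _ hxy)
    rw [← hconjP h hh] at he
    have hy' : d.S.rel d.b (h⁻¹ • y) := by
      have := d.S.inv h⁻¹ (inv_fix (d.P_le h hh)) _ _ hxy
      rwa [inv_smul_smul] at this
    have he' : KS d.b = KS (h⁻¹ • y) := by
      rw [← hconjP h⁻¹ (inv_mem hh), ← he, conjSub_inv_conjSub]
    obtain ⟨z', hz', hz'b, hz'y⟩ : ∃ z', d.S.rel d.b z' ∧ z' ≠ d.b ∧ z' ≠ h⁻¹ • y := by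
      by_contra hcon
      haveI := Fintype.ofFinite Ω
      have hsub : (Finset.univ.filter (d.S.rel d.b)) ⊆ {d.b, h⁻¹ • y} := fun z hz => by
        have hz := (Finset.mem_filter.1 hz).2
        by_cases h1 : z = d.b
        · simp [h1]
        · by_cases h2 : z = h⁻¹ • y
          · simp [h2]
          · exact absurd ⟨z, hz, h1, h2⟩ hcon
      have := Finset.card_le_card hsub
      rw [← Fintype.card_subtype, ← Nat.card_eq_fintype_card, d.S.card d.b d.hba] at this
      have h2 := Finset.card_insert_le d.b ({h⁻¹ • y} : Finset Ω)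
      rw [Finset.card_singleton] at h2
      have := d.three_le
      omega
    have hyb : h⁻¹ • y ≠ d.b := fun e => hne (by rw [← e, smul_inv_smul])
    obtain ⟨k, hk, hkb, hky⟩ := d.ker_two_transitive hnn hy' hz' hyb hz'b
    have hmem : k ∈ KS (h⁻¹ • y) := by rw [← he']; exact ⟨hk, hkb⟩
    exact hz'y (hky.symm.trans hmem.2)
  have hiter : ∀ i : ℕ, ∀ x, x ≠ d.a → ∃ y, d.S.rel (r ^ i • x) y ∧ KS y = KS x := by
    intro i
    induction i with
    | zero => intro x hx; exact ⟨x, by rw [pow_zero, one_smul]; exact d.S.refl x hx, rfl⟩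
    | succ i ih =>
      intro x hx
      obtain ⟨y, hy, hy'⟩ := ih x hx
      obtain ⟨w, hw, hw'⟩ := hnext y (d.S.ne' hy)
      refine ⟨w, ?_, hw'.trans hy'⟩
      rw [pow_succ', mul_smul]
      exact d.S.trans _ _ _ (d.S.inv r (d.P_le r hr) _ _ hy) hw
  have hexp : ∀ i j : ℕ, i < p → j < p → ∀ x, x ≠ d.a → d.S.rel (r ^ i • x) (r ^ j • x) → i = j := by
    intro i j hi hj x hx hrel
    obtain ⟨g, hg, hgx⟩ := d.exists_mem_Q hrel
    have hmem : r ^ j = g * r ^ i := by
      have := d.P_free ((r ^ j)⁻¹ * (g * r ^ i)) (mul_mem (inv_mem (pow_mem hr j)) (mul_mem hg.1 (pow_mem hr i)))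
        x hx (by rw [mul_smul, mul_smul, hgx, inv_smul_smul])
      exact inv_mul_eq_one.1 this
    have key : ∀ m : ℕ, m < p → r ^ m ∈ d.Q → m = 0 := fun m hm hmQ => by
      by_contra hm0
      have hcop : Nat.Coprime m p := (d.prime.coprime_iff_not_dvd.2 fun hd =>
        absurd (Nat.le_of_dvd (by omega) hd) (by omega)).symm
      refine hrQ ?_
      have h1 : r ^ (m.gcd p) ∈ d.Q := by
        rw [← zpow_natCast, Nat.gcd_eq_gcd_ab, zpow_add, zpow_mul, zpow_mul, zpow_natCast, zpow_natCast]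
        exact mul_mem (zpow_mem hmQ _) (zpow_mem hrp _)
      rwa [hcop.gcd_eq_one, pow_one] at h1
    rcases le_total i j with h | h
    · have := key (j - i) (by omega) (by
        rw [pow_sub r h, hmem, mul_inv_cancel_right]; exact hg)
      omega
    · have := key (i - j) (by omega) (by
        rw [pow_sub r h, hmem, mul_inv_rev, ← mul_assoc, mul_inv_cancel, one_mul]; exact inv_mem hg)
      omega
  let T : Sys G d.a p :=
    { rel := fun x y => x ≠ d.a ∧ y ≠ d.a ∧ KS x = KS y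
      ne := fun x y h => h.1
      refl := fun x hx => ⟨hx, hx, rfl⟩
      symm := fun x y h => ⟨h.2.1, h.1, h.2.2.symm⟩
      trans := fun x y z h h' => ⟨h.1, h'.2.1, h.2.2.trans h'.2.2⟩
      inv := fun g hg x y h => by
        refine ⟨smul_ne_of_fix hg h.1, smul_ne_of_fix hg h.2.1, ?_⟩
        have hc : ∀ x, ∀ k, k ∈ KS (g • x) ↔ g⁻¹ * k * g ∈ KS x := by
          intro x k
          constructor
          · rintro ⟨hk, hfix⟩
            refine ⟨?_, ?_⟩
            · have := d.ker_conj (inv_fix hg) hk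
              rwa [inv_inv] at this
            · show (g⁻¹ * k * g) • x = x
              rw [mul_smul, mul_smul, show k • g • x = g • x from hfix, inv_smul_smul]
          · rintro ⟨hk, hfix⟩
            refine ⟨?_, ?_⟩
            · have := d.ker_conj hg hk
              rwa [show g * (g⁻¹ * k * g) * g⁻¹ = k by group] at this
            · show k • g • x = g • x
              have hfix' : (g⁻¹ * k * g) • x = x := hfix
              rw [mul_smul, mul_smul, inv_smul_eq_iff] at hfix'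
              exact hfix'
        ext k
        rw [hc, hc, h.2.2]
      card := fun x hx => by
        choose w hw hw' using fun i : Fin p => hiter i x hx
        conv_rhs => rw [← Nat.card_fin p]
        symm
        refine Nat.card_eq_of_bijective
          (fun i => (⟨w i, hx, d.S.ne' (hw i), (hw' i).symm⟩ :
            {y // x ≠ d.a ∧ y ≠ d.a ∧ KS x = KS y})) ⟨fun i j h => ?_, ?_⟩
        · have h' : w i = w j := congrArg Subtype.val h
          refine Fin.ext (hexp i j i.2 j.2 x hx (d.S.trans _ _ _ (hw i) ?_))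
          rw [h']; exact d.S.symm _ _ (hw j)
        · rintro ⟨y, _, hy, hye⟩
          obtain ⟨h0, hh0, hh0x⟩ := d.P_trans x hx
          obtain ⟨h1, hh1, hh1y⟩ := d.P_trans y hy
          obtain ⟨i, hi, hiQ⟩ := hrgen (h1 * h0⁻¹) (mul_mem hh1 (inv_mem hh0))
          refine ⟨⟨i, hi⟩, Subtype.ext (huniq _ _ ?_ ((hw' _).trans hye))⟩
          refine d.S.trans _ _ _ (d.S.symm _ _ (hw ⟨i, hi⟩)) ?_
          have := hiQ.2.2 x hx
          have h2 := d.S.inv (r ^ i) (d.P_le _ (pow_mem hr i)) _ _ this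
          rwa [← mul_smul, mul_inv_cancel_left, ← hh0x, mul_smul, inv_smul_smul, hh1y, hh0x] at h2 }
  have hST : d.S.Transversal T := fun x y h1 h2 => huniq x y h1 h2.2.2
  refine hST.false_of d.card d.hba d.prime d.three_le d.two (Or.inr fun hbot => hnn fun k hk x hx => ?_)
  have hKb : KS d.b ≤ T.fixBlock d.b := fun g hg => T.mem_fixBlock.2 ⟨hg.1.1, fun z hz => by
    have : g ∈ KS z := hz.2.2 ▸ hg
    exact this.2⟩
  rw [hbot, le_bot_iff] at hKb
  have hkQ : ∀ g ∈ d.ker, g ∈ d.Q := by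
    intro g hg
    obtain ⟨u, hu, hub⟩ := d.exists_mem_Q (hg.2 d.b d.hba)
    have : u⁻¹ * g ∈ KS d.b := ⟨d.ker.mul_mem (d.ker.inv_mem hu.2) hg, show (u⁻¹ * g) • d.b = d.b by
      rw [mul_smul, ← hub, inv_smul_smul]⟩
    rw [hKb, Subgroup.mem_bot, inv_mul_eq_one] at this
    exact this ▸ hu
  exact mul_mem (mul_mem (hkQ k hk) hx) (inv_mem (hkQ k hk))

end Data

end CfsgLib.DegreePSquare
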