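/-
Imprimitive point stabilisers in degree `p ^ 2 + 1`: the case that the Sylow `p`-subgroup of the
stabiliser is normal.
-/
import Mathlib
import Cfsg.Agent.Lib.DegreePSquare.Classes
import Cfsg.Agent.Lib.AltGroups.ZassenhausAbelian

set_option autoImplicit false

namespace CfsgLib.DegreePSquare

open MulAction

variable {G Ω : Type*} [Group G] [MulAction G Ω] [Finite G] [Finite Ω] [FaithfulSMul G Ω] {p : ℕ}

namespace Data

variable (d : Data G Ω p)

/-- A subgroup of `P` of order `p` normalised by the stabiliser of `a` gives a system of blocks. -/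
theorem card_P_orbit {Y : Subgroup G} (hY : Y ≤ d.P) (hYc : Nat.card Y = p) {x : Ω} (hx : x ≠ d.a) :
    Nat.card {y // x ≠ d.a ∧ y ≠ d.a ∧ ∃ g ∈ Y, g • x = y} = p := by
  symm
  conv_lhs => rw [← hYc]
  refine Nat.card_eq_of_bijective (fun g => ⟨(g : G) • x, hx, smul_ne_of_fix (d.P_le _ (hY g.2)) hx,
    g, g.2, rfl⟩) ⟨fun g h e => ?_, ?_⟩
  · have e' : (g : G) • x = (h : G) • x := congrArg Subtype.val e
    have := d.P_free _ (mul_mem (inv_mem (hY h.2)) (hY g.2)) x hx (by rw [mul_smul, e', inv_smul_smul])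
    exact Subtype.ext (inv_mul_eq_one.1 this).symm
  · rintro ⟨y, -, -, g, hg, rfl⟩
    exact ⟨⟨g, hg⟩, rfl⟩

/-- The system of blocks of a normal subgroup of order `p` of `P`. -/
def subSys (Y : Subgroup G) (hY : Y ≤ d.P) (hYc : Nat.card Y = p)
    (hYn : ∀ g : G, g • d.a = d.a → ∀ y ∈ Y, g * y * g⁻¹ ∈ Y) : Sys G d.a p where
  rel x y := x ≠ d.a ∧ y ≠ d.a ∧ ∃ g ∈ Y, g • x = y
  ne x y h := h.1
  refl x hx := ⟨hx, hx, 1, one_mem _, one_smul _ _⟩
  symm x y := fun ⟨hx, hy, g, hg, e⟩ => ⟨hy, hx, g⁻¹, inv_mem hg, inv_smul_eq_iff.2 e.symm⟩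
  trans x y z := fun ⟨hx, _, g, hg, e⟩ ⟨_, hz, g', hg', e'⟩ =>
    ⟨hx, hz, g' * g, mul_mem hg' hg, by rw [mul_smul, e, e']⟩
  inv g hga x y := fun ⟨hx, hy, k, hk, e⟩ => ⟨smul_ne_of_fix hga hx, smul_ne_of_fix hga hy,
    g * k * g⁻¹, hYn g hga k hk, by rw [mul_smul, mul_smul, inv_smul_smul, e]⟩
  card x hx := d.card_P_orbit hY hYc hx

theorem subSys_transversal {Y : Subgroup G} (hY : Y ≤ d.P) (hYc : Nat.card Y = p)
    (hYn : ∀ g : G, g • d.a = d.a → ∀ y ∈ Y, g * y * g⁻¹ ∈ Y) (hYQ : d.Q ⊓ Y = ⊥) :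
    d.S.Transversal (d.subSys Y hY hYc hYn) := by
  rintro x y hS ⟨hx, -, g, hg, e⟩
  obtain ⟨q, hq, hqx⟩ := d.exists_mem_Q hS
  have := d.P_free _ (mul_mem (inv_mem hq.1) (hY hg)) x hx (by rw [mul_smul, e, ← hqx, inv_smul_smul])
  rw [inv_mul_eq_one] at this
  subst this
  have h1 : q ∈ d.Q ⊓ Y := ⟨hq, hg⟩
  rw [hYQ, Subgroup.mem_bot] at h1
  rw [h1, one_smul] at e
  exact e

theorem conj_mem_Q (hPn : ∀ g : G, g • d.a = d.a → ∀ x ∈ d.P, g * x * g⁻¹ ∈ d.P) {g : G}
    (hg : g • d.a = d.a) {x : G} (hx : x ∈ d.Q) : g * x * g⁻¹ ∈ d.Q :=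
  ⟨hPn g hg x hx.1, d.ker_conj hg hx.2⟩

/-- An element of the two point stabiliser centralising an element of `P` fixes the translate of
the base point, and conversely. -/
theorem smul_iff_comm (hPn : ∀ g : G, g • d.a = d.a → ∀ x ∈ d.P, g * x * g⁻¹ ∈ d.P) {g h : G}
    (hga : g • d.a = d.a) (hgb : g • d.b = d.b) (hh : h ∈ d.P) :
    g • h • d.b = h • d.b ↔ g * h = h * g := by
  constructor
  · intro e
    have e' : (g * h * g⁻¹) • d.b = h • d.b := by
      rw [mul_smul, mul_smul, show g⁻¹ • d.b = d.b from inv_smul_eq_iff.2 hgb.symm, e]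
    have := d.P_free _ (mul_mem (inv_mem hh) (hPn g hga h hh)) d.b d.hba (by rw [mul_smul, e', inv_smul_smul])
    rw [inv_mul_eq_one] at this
    calc g * h = g * h * g⁻¹ * g := by group
      _ = h * g := by rw [← this]
  · intro e
    rw [← mul_smul, e, mul_smul, hgb]

theorem eq_one_of_comm_P (hPn : ∀ g : G, g • d.a = d.a → ∀ x ∈ d.P, g * x * g⁻¹ ∈ d.P) {g : G}
    (hga : g • d.a = d.a) (hgb : g • d.b = d.b) (h : ∀ x ∈ d.P, g * x = x * g) : g = 1 := by
  refine eq_of_smul_eq_smul (α := Ω) fun x => ?_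
  rw [one_smul]
  by_cases hx : x = d.a
  · rw [hx, hga]
  · obtain ⟨k, hk, rfl⟩ := d.P_trans x hx
    exact (d.smul_iff_comm hPn hga hgb hk).2 (h k hk)

omit [FaithfulSMul G Ω] [Finite Ω] in
theorem eq_one_of_pow_coprime {y : G} {m : ℕ} (hm : y ^ m = 1) (hp : y ^ p ^ 2 = 1)
    (hp' : p.Prime) (hnd : ¬ p ∣ m) : y = 1 :=
  orderOf_eq_one_iff.1 (Nat.eq_one_of_dvd_coprimes (((hp'.coprime_iff_not_dvd).2 hnd).pow_left 2)
    (orderOf_dvd_of_pow_eq_one hp) (orderOf_dvd_of_pow_eq_one hm))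

theorem pow_p_sq {y : G} (hy : y ∈ d.P) : y ^ p ^ 2 = 1 := by
  have h0 := pow_card_eq_one' (G := d.P) (x := ⟨y, hy⟩)
  rw [d.P_card] at h0
  exact congrArg Subtype.val h0

/-- An automorphism of `P` of order prime to `p` centralising a subgroup and its quotient is
trivial. -/
theorem comm_of_comm_mod {g h : G} (hh : h ∈ d.P) (hnd : ¬ p ∣ orderOf g)
    (hy : g * h * g⁻¹ * h⁻¹ ∈ d.P) (hgy : g * (g * h * g⁻¹ * h⁻¹) = g * h * g⁻¹ * h⁻¹ * g) :
    g * h = h * g := by
  set y := g * h * g⁻¹ * h⁻¹ with hydef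
  have hk : ∀ k : ℕ, g ^ k * h * (g ^ k)⁻¹ = y ^ k * h := by
    intro k
    induction k with
    | zero => simp
    | succ k ih =>
      have hc : g * y ^ k = y ^ k * g := (show Commute g y from hgy).pow_right k
      calc g ^ (k + 1) * h * (g ^ (k + 1))⁻¹ = g * (g ^ k * h * (g ^ k)⁻¹) * g⁻¹ := by
            rw [pow_succ']; group
        _ = y ^ k * (g * h * g⁻¹) := by rw [ih, ← mul_assoc, hc]; group
        _ = y ^ (k + 1) * h := by rw [pow_succ, hydef]; group
  have h1 := hk (orderOf g)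
  rw [pow_orderOf_eq_one, one_mul, inv_one, mul_one, eq_comm, mul_eq_right] at h1
  have := eq_one_of_pow_coprime h1 (d.pow_p_sq hy) d.prime hnd
  rw [hydef, mul_inv_eq_one, mul_inv_eq_iff_eq_mul] at this
  exact this

/-- The two point stabiliser is commutative if the Sylow subgroup is normal. -/
theorem stab_comm (hPn : ∀ g : G, g • d.a = d.a → ∀ x ∈ d.P, g * x * g⁻¹ ∈ d.P) {g g' : G}
    (hga : g • d.a = d.a) (hgb : g • d.b = d.b) (hg'a : g' • d.a = d.a) (hg'b : g' • d.b = d.b) :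
    g * g' = g' * g := by
  obtain ⟨q, hq, hq1, hgen⟩ := d.exists_Q_gen
  obtain ⟨r, hr, hrQ, hrp, hrgen⟩ := d.exists_r
  -- action on `Q` and on `P` modulo `Q`
  have hQ : ∀ h : G, h • d.a = d.a → ∃ i : ℕ, ∀ x ∈ d.Q, h * x * h⁻¹ = x ^ i := by
    intro h hh
    obtain ⟨i, hi⟩ := hgen _ (d.conj_mem_Q hPn hh hq)
    refine ⟨i, fun x hx => ?_⟩
    obtain ⟨j, rfl⟩ := hgen x hx
    rw [← conj_pow, ← hi, pow_right_comm]
  have hP : ∀ h : G, h • d.a = d.a → ∃ i : ℕ, ∀ x ∈ d.P, (x ^ i)⁻¹ * (h * x * h⁻¹) ∈ d.Q := by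
    intro h hh
    obtain ⟨i, -, hi⟩ := hrgen _ (hPn h hh r hr)
    refine ⟨i, fun x hx => ?_⟩
    obtain ⟨j, -, hj⟩ := hrgen x hx
    set w := (r ^ i)⁻¹ * (h * r * h⁻¹) with hw
    set v := (r ^ j)⁻¹ * x with hv
    have e : x = r ^ j * v := by rw [hv, mul_inv_cancel_left]
    have e' : h * r * h⁻¹ = r ^ i * w := by rw [hw, mul_inv_cancel_left]
    have hcv : Commute (r ^ j) v := d.P_comm _ (pow_mem hr j) _ hj.1
    have hcw : Commute (r ^ i) w := d.P_comm _ (pow_mem hr i) _ hi.1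
    have h1 : h * x * h⁻¹ = (r ^ j) ^ i * (w ^ j * (h * v * h⁻¹)) := by
      calc h * x * h⁻¹ = (h * r ^ j * h⁻¹) * (h * v * h⁻¹) := by rw [e]; group
        _ = (r ^ i * w) ^ j * (h * v * h⁻¹) := by rw [← conj_pow, e']
        _ = _ := by rw [hcw.mul_pow, pow_right_comm, mul_assoc]
    have h2 : (x ^ i)⁻¹ * (h * x * h⁻¹) = (v ^ i)⁻¹ * (w ^ j * (h * v * h⁻¹)) := by
      rw [h1, e, hcv.mul_pow, mul_inv_rev, mul_assoc ((v ^ i)⁻¹), inv_mul_cancel_left]
    rw [h2]
    exact mul_mem (inv_mem (pow_mem hj i)) (mul_mem (pow_mem hi j) (d.conj_mem_Q hPn hh hj))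
  obtain ⟨i, hi⟩ := hQ g hga
  obtain ⟨i', hi'⟩ := hQ g' hg'a
  obtain ⟨k, hk⟩ := hP g hga
  obtain ⟨k', hk'⟩ := hP g' hg'a
  set c := (g' * g)⁻¹ * (g * g') with hc
  have hca : c • d.a = d.a := by
    simp [hc, mul_smul, hga, hg'a, inv_fix hga, inv_fix hg'a]
  have hcb : c • d.b = d.b := by
    simp [hc, mul_smul, hgb, hg'b, inv_smul_eq_iff]
  have hccancel : ∀ x : G, (g' * g) * (c * x * c⁻¹) * (g' * g)⁻¹ = (g * g') * x * (g * g')⁻¹ := fun x => by
    rw [hc]; group
  have hcQ : ∀ x ∈ d.Q, c * x = x * c := by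
    intro x hx
    have e1 : (g * g') * x * (g * g')⁻¹ = (g' * g) * x * (g' * g)⁻¹ := by
      calc (g * g') * x * (g * g')⁻¹ = g * (g' * x * g'⁻¹) * g⁻¹ := by group
        _ = (x ^ i) ^ i' := by rw [hi' x hx, ← conj_pow, hi x hx]
        _ = (x ^ i') ^ i := pow_right_comm _ _ _
        _ = g' * (g * x * g⁻¹) * g'⁻¹ := by rw [hi x hx, ← conj_pow, hi' x hx]
        _ = _ := by group
    rw [← hccancel] at e1
    have e2 : c * x * c⁻¹ = x := by
      have := mul_right_cancel e1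
      exact mul_left_cancel this
    exact mul_inv_eq_iff_eq_mul.1 e2
  have hcP : ∀ x ∈ d.P, c * x * c⁻¹ * x⁻¹ ∈ d.Q := by
    intro x hx
    have hcomb : ∀ (u v : G) (m n : ℕ), u • d.a = d.a →
        (∀ x ∈ d.P, (x ^ m)⁻¹ * (u * x * u⁻¹) ∈ d.Q) → (∀ x ∈ d.P, (x ^ n)⁻¹ * (v * x * v⁻¹) ∈ d.Q) →
        ((x ^ m) ^ n)⁻¹ * ((u * v) * x * (u * v)⁻¹) ∈ d.Q := by
      intro u v m n hu hm hn
      have h1 := hm _ (pow_mem hx n)
      have h2 := d.conj_mem_Q hPn hu (hn x hx)
      rw [pow_right_comm x n m] at h1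
      have : ((x ^ m) ^ n)⁻¹ * ((u * v) * x * (u * v)⁻¹) =
          ((x ^ m) ^ n)⁻¹ * (u * x ^ n * u⁻¹) * (u * ((x ^ n)⁻¹ * (v * x * v⁻¹)) * u⁻¹) := by group
      rw [this]
      exact mul_mem h1 h2
    have h1 := hcomb g g' k k' hga hk hk'
    have h2 := hcomb g' g k' k hg'a hk' hk
    rw [pow_right_comm x k' k] at h2
    have h3 : ((g' * g) * x * (g' * g)⁻¹)⁻¹ * ((g * g') * x * (g * g')⁻¹) ∈ d.Q := by
      have := mul_mem (inv_mem h2) h1
      rwa [mul_inv_rev, inv_inv, mul_assoc, mul_inv_cancel_left] at this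
    have hg'g : (g' * g)⁻¹ • d.a = d.a := by simp [mul_smul, inv_fix hga, inv_fix hg'a]
    have h4 := d.conj_mem_Q hPn hg'g h3
    rw [inv_inv] at h4
    have h5 : (g' * g)⁻¹ * (((g' * g) * x * (g' * g)⁻¹)⁻¹ * ((g * g') * x * (g * g')⁻¹)) * (g' * g) =
        x⁻¹ * (c * x * c⁻¹) := by rw [hc]; group
    rw [h5] at h4
    have hmem := hPn c hca x hx
    rwa [d.P_comm _ hmem _ (inv_mem hx)]
  have hc1 : c = 1 := d.eq_one_of_comm_P hPn hca hcb fun x hx =>
    d.comm_of_comm_mod hx (not_dvd_orderOf (d.not_dvd d.b d.hba) ⟨hca, hcb⟩) (hcP x hx).1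
      (hcQ _ (hcP x hx))
  rw [hc, inv_mul_eq_one] at hc1
  exact hc1.symm

/-- If `P` is normal, no nontrivial element of the two point stabiliser fixes a third point. -/
theorem fix_third (hPn : ∀ g : G, g • d.a = d.a → ∀ x ∈ d.P, g * x * g⁻¹ ∈ d.P) {g : G}
    (hga : g • d.a = d.a) (hgb : g • d.b = d.b) {c : Ω} (hca : c ≠ d.a) (hcb : c ≠ d.b)
    (hgc : g • c = c) : g = 1 := by
  haveI := Fact.mk d.prime
  by_contra hg1
  obtain ⟨h0, hh0, rfl⟩ := d.P_trans c hca
  have hgh := (d.smul_iff_comm hPn hga hgb hh0).1 hgc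
  -- the centralised subgroup
  set Y := d.P ⊓ Subgroup.centralizer {g} with hYdef
  have memY : ∀ x, x ∈ Y ↔ x ∈ d.P ∧ g * x = x * g := fun x => by
    rw [hYdef, Subgroup.mem_inf, Subgroup.mem_centralizer_iff]
    simp
  have hYne : h0 ∈ Y ∧ h0 ≠ 1 := ⟨(memY _).2 ⟨hh0, hgh⟩, fun e => hcb (by rw [e, one_smul])⟩
  have hYc : Nat.card Y = p := by
    obtain ⟨i, hi2, hi⟩ := (Nat.dvd_prime_pow d.prime).1 (d.P_card ▸ Subgroup.card_dvd_of_le (inf_le_left : Y ≤ d.P))
    rcases i with _ | _ | i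
    · haveI := (Nat.card_eq_one_iff_unique.1 hi).1
      exact absurd (congrArg Subtype.val (Subsingleton.elim (⟨h0, hYne.1⟩ : Y) 1)) hYne.2
    · rw [hi, pow_one]
    · exfalso
      have : i = 0 := by omega
      subst this
      have hYP : Y = d.P := Subgroup.eq_of_le_of_card_ge inf_le_left (by rw [hi, d.P_card])
      exact hg1 (d.eq_one_of_comm_P hPn hga hgb fun x hx => ((memY x).1 (hYP ▸ hx)).2)
  have hYP : Y ≤ d.P := inf_le_left
  -- `g` and all the elements of the two point stabiliser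
  have hdec : ∀ u : G, u • d.a = d.a → ∃ x ∈ d.P, (x⁻¹ * u) • d.a = d.a ∧ (x⁻¹ * u) • d.b = d.b := by
    intro u hu
    obtain ⟨x, hx, hxu⟩ := d.P_trans (u • d.b) (smul_ne_of_fix hu d.hba)
    exact ⟨x, hx, by rw [mul_smul, hu, inv_fix (d.P_le x hx)], by rw [mul_smul, ← hxu, inv_smul_smul]⟩
  have hnd : ¬ p ∣ orderOf g := not_dvd_orderOf (d.not_dvd d.b d.hba) ⟨hga, hgb⟩
  have hQc : Nat.card d.Q = p := d.card_Q
  have hinter : ∀ Z : Subgroup G, Nat.card Z = p → Z ≠ d.Q → d.Q ⊓ Z = ⊥ := by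
    intro Z hZ hne
    rcases (Nat.dvd_prime d.prime).1 (hQc ▸ Subgroup.card_dvd_of_le (inf_le_left : d.Q ⊓ Z ≤ d.Q)) with e | e
    · exact Subgroup.card_eq_one.1 e
    · have h1 : d.Q ⊓ Z = d.Q := Subgroup.eq_of_le_of_card_ge inf_le_left (by rw [e, hQc])
      exact absurd (Subgroup.eq_of_le_of_card_ge (inf_eq_left.1 h1) (by rw [hQc, hZ])).symm hne
  by_cases hYQ : Y = d.Q
  · -- the image of the commutator map is a second system
    have hcQ : ∀ x ∈ d.Q, g * x = x * g := fun x hx => ((memY x).1 (hYQ ▸ hx)).2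
    set ψ : d.P →* G := MonoidHom.mk' (fun x => g * (x : G) * g⁻¹ * (x : G)⁻¹) (fun x y => by
      have h1 := d.P_comm _ (hPn g hga y y.2) _ (inv_mem x.2)
      simp only [Subgroup.coe_mul]
      calc g * ((x : G) * y) * g⁻¹ * ((x : G) * y)⁻¹
          = g * (x : G) * g⁻¹ * ((g * (y : G) * g⁻¹) * ((y : G)⁻¹ * (x : G)⁻¹)) := by group
        _ = g * (x : G) * g⁻¹ * ((g * (y : G) * g⁻¹) * (x : G)⁻¹ * (y : G)⁻¹) := by
            rw [show (y : G)⁻¹ * (x : G)⁻¹ = (x : G)⁻¹ * (y : G)⁻¹ from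
              d.P_comm _ (inv_mem y.2) _ (inv_mem x.2), mul_assoc (g * (y : G) * g⁻¹)]
        _ = _ := by rw [h1]; group) with hψ
    have hψP : ∀ x : d.P, ψ x ∈ d.P := fun x => mul_mem (hPn g hga x x.2) (inv_mem x.2)
    set R := ψ.range with hR
    have hRP : R ≤ d.P := by
      rintro _ ⟨x, rfl⟩
      exact hψP x
    have hker : ψ.ker = d.Q.subgroupOf d.P := by
      ext x
      rw [MonoidHom.mem_ker, Subgroup.mem_subgroupOf, ← hYQ, memY]
      show g * (x : G) * g⁻¹ * (x : G)⁻¹ = 1 ↔ _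
      rw [mul_inv_eq_one, mul_inv_eq_iff_eq_mul]
      exact ⟨fun h => ⟨x.2, h⟩, fun h => h.2⟩
    have hRc : Nat.card R = p := by
      rw [hR, ← Subgroup.index_ker, hker]
      have h := (d.Q.subgroupOf d.P).index_mul_card
      have hle : d.Q ≤ d.P := inf_le_left
      rw [Nat.card_congr (Subgroup.subgroupOfEquivOfLe hle).toEquiv, hQc, d.P_card,
        pow_two] at h
      exact Nat.eq_of_mul_eq_mul_right d.prime.pos h
    have hRn : ∀ u : G, u • d.a = d.a → ∀ y ∈ R, u * y * u⁻¹ ∈ R := by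
      rintro u hu _ ⟨x, rfl⟩
      obtain ⟨z, hz, hza, hzb⟩ := hdec u hu
      have hcz := d.stab_comm hPn hga hgb hza hzb
      set v := z⁻¹ * u with hv
      refine ⟨⟨v * (x : G) * v⁻¹, hPn v hza _ x.2⟩, ?_⟩
      have h2 : v * ψ x * v⁻¹ = ψ ⟨v * (x : G) * v⁻¹, hPn v hza _ x.2⟩ := by
        show v * (g * (x : G) * g⁻¹ * (x : G)⁻¹) * v⁻¹ = g * (v * (x : G) * v⁻¹) * g⁻¹ * (v * (x : G) * v⁻¹)⁻¹
        calc v * (g * (x : G) * g⁻¹ * (x : G)⁻¹) * v⁻¹
            = (v * g) * (x : G) * g⁻¹ * (x : G)⁻¹ * v⁻¹ := by group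
          _ = (g * v) * (x : G) * g⁻¹ * (x : G)⁻¹ * v⁻¹ := by rw [hcz]
          _ = g * (v * (x : G) * v⁻¹) * (v * g⁻¹ * v⁻¹) * (v * (x : G) * v⁻¹)⁻¹ := by group
          _ = _ := by
            rw [show v * g⁻¹ * v⁻¹ = g⁻¹ by
              rw [mul_inv_eq_iff_eq_mul]
              exact (show Commute g v from hcz).inv_left.eq.symm]
      rw [← h2]
      have h3 : u * ψ x * u⁻¹ = z * (v * ψ x * v⁻¹) * z⁻¹ := by rw [hv]; group
      rw [h3, d.P_comm z hz _ (hPn v hza _ (hψP x)), mul_inv_cancel_right]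
    have hRQ : R ≠ d.Q := by
      intro e
      have htriv : ∀ x ∈ d.P, g * x = x * g := fun x hx => by
        have hy : ψ ⟨x, hx⟩ ∈ d.Q := e ▸ ⟨_, rfl⟩
        exact d.comm_of_comm_mod hx hnd hy.1 (hcQ _ hy)
      exact hg1 (d.eq_one_of_comm_P hPn hga hgb htriv)
    refine (d.subSys_transversal hRP hRc hRn (hinter R hRc hRQ)).false_of d.card d.hba d.prime d.three_le d.two
      (Or.inl fun hbot => hg1 ?_)
    have : g ∈ d.S.fixBlock d.b := d.S.mem_fixBlock.2 ⟨hga, fun z hz => by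
      obtain ⟨q, hq, rfl⟩ := d.exists_mem_Q hz
      exact (d.smul_iff_comm hPn hga hgb hq.1).2 (hcQ q hq)⟩
    rw [hbot, Subgroup.mem_bot] at this
    exact this
  · have hYn : ∀ u : G, u • d.a = d.a → ∀ y ∈ Y, u * y * u⁻¹ ∈ Y := by
      intro u hu y hy
      obtain ⟨z, hz, hza, hzb⟩ := hdec u hu
      have hcz := d.stab_comm hPn hga hgb hza hzb
      obtain ⟨hyP, hyg⟩ := (memY y).1 hy
      set v := z⁻¹ * u with hv
      refine (memY _).2 ⟨hPn u hu y hyP, ?_⟩
      have h3 : u * y * u⁻¹ = v * y * v⁻¹ := by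
        rw [show u * y * u⁻¹ = z * (v * y * v⁻¹) * z⁻¹ by rw [hv]; group,
          d.P_comm z hz _ (hPn v hza y hyP), mul_inv_cancel_right]
      rw [h3]
      calc g * (v * y * v⁻¹) = (g * v) * y * v⁻¹ := by group
        _ = v * (g * y) * v⁻¹ := by rw [hcz]; group
        _ = v * y * (g * v⁻¹) := by rw [hyg]; group
        _ = v * y * v⁻¹ * g := by rw [(show Commute g v from hcz).inv_right.eq]; group
    refine (d.subSys_transversal hYP hYc hYn (hinter Y hYc hYQ)).false_of d.card d.hba d.prime d.three_le d.two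
      (Or.inr fun hbot => hg1 ?_)
    have : g ∈ (d.subSys Y hYP hYc hYn).fixBlock d.b :=
      (d.subSys Y hYP hYc hYn).mem_fixBlock.2 ⟨hga, fun z hz => by
        obtain ⟨-, -, y, hy, rfl⟩ := hz
        exact (d.smul_iff_comm hPn hga hgb (hYP hy)).2 ((memY y).1 hy).2⟩
    rw [hbot, Subgroup.mem_bot] at this
    exact this

/-- If `P` is normal the group is a Zassenhaus group with too small a two point stabiliser. -/
theorem false_of_normal (hPn : ∀ g : G, g • d.a = d.a → ∀ x ∈ d.P, g * x * g⁻¹ ∈ d.P) : False := by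
  classical
  haveI := Fintype.ofFinite Ω
  haveI := Fact.mk d.prime
  have h2 := d.two
  rw [MulAction.is_two_pretransitive_iff] at h2
  have hp3 := d.three_le
  have hpodd : Odd p := d.prime.odd_of_ne_two (by omega)
  set D := stabilizer G d.a ⊓ stabilizer G d.b with hD
  -- three points fixed
  have hthree : ∀ g : G, ∀ x y z : Ω, x ≠ y → y ≠ z → x ≠ z → g • x = x → g • y = y → g • z = z → g = 1 := by
    intro g x y z hxy hyz hxz hx hy hz
    obtain ⟨h, hha, hhb⟩ := h2 (Ne.symm d.hba) hxy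
    have e : h⁻¹ * g * h = 1 := by
      refine d.fix_third hPn ?_ ?_ (c := h⁻¹ • z) ?_ ?_ ?_
      · rw [mul_smul, mul_smul, hha, hx, inv_smul_eq_iff, hha]
      · rw [mul_smul, mul_smul, hhb, hy, inv_smul_eq_iff, hhb]
      · intro e; rw [inv_smul_eq_iff, hha] at e; exact hxz e.symm
      · intro e; rw [inv_smul_eq_iff, hhb] at e; exact hyz e.symm
      · rw [mul_smul, mul_smul, smul_inv_smul, hz]
    calc g = h * (h⁻¹ * g * h) * h⁻¹ := by group
      _ = 1 := by rw [e]; group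
  -- the two point stabiliser is small
  have hDle : Nat.card D < p := by
    obtain ⟨q, hq, hq1, -⟩ := d.exists_Q_gen
    let f : D → d.Q := fun g => ⟨(g : G) * q * (g : G)⁻¹, d.conj_mem_Q hPn g.2.1 hq⟩
    have hf : Function.Injective f := by
      intro g g' e
      have e' : (g : G) * q * (g : G)⁻¹ = (g' : G) * q * (g' : G)⁻¹ := congrArg Subtype.val e
      refine Subtype.ext (inv_mul_eq_one.1 ?_).symm
      have hu : (g' : G)⁻¹ * g ∈ D := mul_mem (inv_mem g'.2) g.2
      refine d.fix_third hPn hu.1 hu.2 (c := q • d.b) (smul_ne_of_fix (d.P_le q hq.1) d.hba)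
        (fun e => hq1 (d.P_free q hq.1 d.b d.hba e)) ((d.smul_iff_comm hPn hu.1 hu.2 hq.1).2 ?_)
      calc (g' : G)⁻¹ * g * q = (g' : G)⁻¹ * ((g : G) * q * (g : G)⁻¹) * g := by group
        _ = q * ((g' : G)⁻¹ * g) := by rw [e']; group
    have hne : ∀ g, f g ≠ 1 := fun g h => hq1 (by
      have := congrArg Subtype.val h
      simpa [f] using this)
    rw [← d.card_Q]
    haveI := Fintype.ofFinite D
    haveI := Fintype.ofFinite d.Q
    rw [Nat.card_eq_fintype_card, Nat.card_eq_fintype_card]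
    exact Fintype.card_lt_of_injective_of_notMem f hf (b := 1) (by rintro ⟨g, hg⟩; exact hne g hg)
  -- an element of odd prime order with no fixed point
  obtain ⟨m, hm⟩ : Even (p ^ 2 + 1) := by
    rw [Nat.even_add_one, Nat.not_even_iff_odd]; exact hpodd.pow
  obtain ⟨ℓ, hℓ, hℓm⟩ := Nat.exists_prime_and_dvd (show m ≠ 1 by nlinarith)
  have hℓdvd : ℓ ∣ p ^ 2 + 1 := hm ▸ dvd_add hℓm hℓm
  have hℓp : ℓ ≠ p := fun e => by
    subst e
    exact hℓ.not_dvd_one ((Nat.dvd_add_right (dvd_pow_self ℓ two_ne_zero)).1 hℓdvd)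
  have hℓ2 : ℓ ≠ 2 := fun e => by
    subst e
    obtain ⟨t, rfl⟩ := hℓm
    obtain ⟨s, rfl⟩ := hpodd
    ring_nf at hm
    omega
  haveI := Fact.mk hℓ
  have hPa : ∀ g ∈ d.P, g • d.a = d.a := d.P_le
  have hFn : (d.P.subgroupOf (stabilizer G d.a)).Normal := ⟨fun n hn u =>
    Subgroup.mem_subgroupOf.2 (hPn u u.2 _ (Subgroup.mem_subgroupOf.1 hn))⟩
  have hreg : ∀ y z : Ω, y ≠ d.a → z ≠ d.a → ∃! u : d.P, (u : G) • y = z := by
    intro y z hy hz
    obtain ⟨gy, hgy, rfl⟩ := d.P_trans y hy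
    obtain ⟨gz, hgz, rfl⟩ := d.P_trans z hz
    refine ⟨⟨gz * gy⁻¹, mul_mem hgz (inv_mem hgy)⟩, by
      show (gz * gy⁻¹) • gy • d.b = gz • d.b
      rw [mul_smul, inv_smul_smul], fun u hu => Subtype.ext ?_⟩
    have := d.P_free ((gz * gy⁻¹)⁻¹ * u) (mul_mem (inv_mem (mul_mem hgz (inv_mem hgy))) u.2) _ hy (by
      rw [mul_smul, hu, inv_smul_eq_iff, mul_smul, inv_smul_smul])
    exact (inv_mul_eq_one.1 this).symm
  have hcardG : p ^ 2 + 1 ∣ Nat.card G := by
    have horb : orbit G d.a = Set.univ := Set.eq_univ_of_forall fun y => by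
      by_cases hy : y = d.a
      · rw [hy]; exact mem_orbit_self _
      · obtain ⟨g, hg, -⟩ := h2 (Ne.symm d.hba) (show y ≠ d.a from hy)
        exact ⟨g, hg⟩
    rw [← (stabilizer G d.a).index_mul_card, MulAction.index_stabilizer, horb, Set.ncard_univ, d.card]
    exact dvd_mul_right _ _
  by_cases hD1 : D = ⊥
  · -- sharply two transitive
    have hpair : ∀ g : G, ∀ x y : Ω, x ≠ y → g • x = x → g • y = y → g = 1 := by
      intro g x y hxy hx hy
      obtain ⟨h, hha, hhb⟩ := h2 (Ne.symm d.hba) hxy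
      have : h⁻¹ * g * h ∈ D :=
        ⟨show (h⁻¹ * g * h) • d.a = d.a by rw [mul_smul, mul_smul, hha, hx, inv_smul_eq_iff, hha],
          show (h⁻¹ * g * h) • d.b = d.b by rw [mul_smul, mul_smul, hhb, hy, inv_smul_eq_iff, hhb]⟩
      rw [hD1, Subgroup.mem_bot] at this
      calc g = h * (h⁻¹ * g * h) * h⁻¹ := by group
        _ = 1 := by rw [this]; group
    obtain ⟨x, hx⟩ := exists_prime_orderOf_dvd_card' (G := G) ℓ (hℓdvd.trans hcardG)
    have hstab : ∀ g : G, ∀ y : Ω, g • y = y → orderOf g ∣ p ^ 2 := by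
      intro g y hy
      have hc : Nat.card (stabilizer G d.a) = p ^ 2 := by
        rw [d.toSetup.card_stab d.hba, show stabilizer G d.toSetup.a ⊓ stabilizer G d.b = ⊥ from hD1,
          Subgroup.card_bot, mul_one]
      have hc' : ∀ u : G, u • d.a = d.a → orderOf u ∣ p ^ 2 := fun u hu => by
        rw [← hc]
        have h0 := orderOf_dvd_natCard (⟨u, hu⟩ : stabilizer G d.a)
        rwa [← Subgroup.orderOf_coe] at h0
      by_cases hya : y = d.a
      · exact hc' g (hya ▸ hy)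
      · obtain ⟨h, hha, -⟩ := h2 (Ne.symm d.hba) hya
        have := hc' (h⁻¹ * g * h) (by rw [mul_smul, mul_smul, hha, hy, inv_smul_eq_iff, hha])
        rwa [show orderOf (h⁻¹ * g * h) = orderOf g from by
          have := (MulAut.conj h⁻¹).orderOf_eq g
          rw [MulAut.conj_apply, inv_inv] at this
          exact this] at this
    have hxfix : ∀ y : Ω, x • y ≠ y := fun y hy => by
      have := hstab x y hy
      rw [hx] at this
      exact hℓp ((Nat.prime_dvd_prime_iff_eq hℓ d.prime).1 (hℓ.dvd_of_dvd_pow this))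
    obtain ⟨g, hga, hgy⟩ := h2 (hxfix d.a).symm (hxfix d.a)
    have hg2 : g * g = 1 := by
      refine hpair _ d.a (x • d.a) (hxfix d.a).symm ?_ ?_
      · rw [mul_smul, hga, hgy]
      · rw [mul_smul, hgy, hga]
    have hgfix : ∀ y : Ω, g • y ≠ y := by
      intro y hy
      have h1 := hstab g y hy
      have hg1 : g ≠ 1 := fun e => hxfix d.a (by rw [e, one_smul] at hga; exact hga.symm)
      have : orderOf g = 2 := orderOf_eq_prime (by rw [pow_two, hg2]) hg1
      rw [this] at h1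
      exact absurd (hpodd.pow (n := 2)) (Nat.not_odd_iff_even.2 (even_iff_two_dvd.2 h1))
    -- every fixed point free element agrees with `g` at most at one point; count
    set A : Finset G := by
      haveI := Fintype.ofFinite G
      exact Finset.univ.filter (fun u => u * u = 1 ∧ ∀ y : Ω, u • y ≠ y) with hA
    set B : Finset G := by
      haveI := Fintype.ofFinite G
      exact Finset.univ.filter (fun u => ∀ y : Ω, u • y ≠ y) with hB
    haveI := Fintype.ofFinite G
    have hmA : ∀ u, u ∈ A ↔ u * u = 1 ∧ ∀ y : Ω, u • y ≠ y := fun u => by simp [hA]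
    have hmB : ∀ u, u ∈ B ↔ ∀ y : Ω, u • y ≠ y := fun u => by simp [hB]
    have hAlow : p ^ 2 ≤ A.card := by
      have hex : ∀ y : {y : Ω // y ≠ d.a}, ∃ u ∈ A, u • d.a = (y : Ω) := by
        intro ⟨y, hy⟩
        obtain ⟨u, hua, huy⟩ := h2 (Ne.symm hy) hy
        have hu2 : u * u = 1 := hpair _ d.a y (Ne.symm hy) (by rw [mul_smul, hua, huy]) (by rw [mul_smul, huy, hua])
        refine ⟨u, (hmA u).2 ⟨hu2, fun z hz => ?_⟩, hua⟩
        have h1 := hstab u z hz
        have hu1 : u ≠ 1 := fun e => hy (by rw [e, one_smul] at hua; exact hua.symm)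
        have : orderOf u = 2 := orderOf_eq_prime (by rw [pow_two, hu2]) hu1
        rw [this] at h1
        exact absurd (hpodd.pow (n := 2)) (Nat.not_odd_iff_even.2 (even_iff_two_dvd.2 h1))
      choose u hu hua using hex
      have : Function.Injective (fun y => (⟨u y, hu y⟩ : A)) := fun y z e => Subtype.ext (by
        have e' : u y = u z := congrArg Subtype.val e
        rw [← hua y, ← hua z, e'])
      have h := Fintype.card_le_of_injective _ this
      rwa [Fintype.card_coe, Fintype.card_subtype_compl, Fintype.card_subtype_eq, ← Nat.card_eq_fintype_card,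
        d.card, Nat.add_sub_cancel] at h
    have hBup : B.card ≤ p ^ 2 := by
      -- the translations at `a` and the stabilisers fill the group
      have hcard : Fintype.card G = (p ^ 2 + 1) * p ^ 2 := by
        rw [← Nat.card_eq_fintype_card, ← (stabilizer G d.a).index_mul_card, MulAction.index_stabilizer,
          show orbit G d.a = Set.univ from Set.eq_univ_of_forall fun y => by
            by_cases hy : y = d.a
            · rw [hy]; exact mem_orbit_self _
            · obtain ⟨g, hg, -⟩ := h2 (Ne.symm d.hba) (show y ≠ d.a from hy)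
              exact ⟨g, hg⟩,
          Set.ncard_univ, d.card, d.toSetup.card_stab d.hba,
          show stabilizer G d.toSetup.a ⊓ stabilizer G d.b = ⊥ from hD1, Subgroup.card_bot, mul_one]
      set U : Finset G := Finset.univ.biUnion (fun y : Ω =>
        (Finset.univ.filter (fun u : G => u • y = y)).erase 1) with hU
      have hUc : U.card = (p ^ 2 + 1) * (p ^ 2 - 1) := by
        rw [hU, Finset.card_biUnion]
        · rw [Finset.sum_congr rfl (fun y _ => show ((Finset.univ.filter (fun u : G => u • y = y)).erase 1).card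
            = p ^ 2 - 1 by
            rw [Finset.card_erase_of_mem (by simp)]
            congr 1
            rw [← Fintype.card_subtype, ← Nat.card_eq_fintype_card]
            show Nat.card (stabilizer G y) = p ^ 2
            by_cases hya : y = d.a
            · rw [hya, d.toSetup.card_stab d.hba,
                show stabilizer G d.toSetup.a ⊓ stabilizer G d.b = ⊥ from hD1, Subgroup.card_bot, mul_one]
            · obtain ⟨h, hha, -⟩ := h2 (Ne.symm d.hba) hya
              rw [← hha, MulAction.stabilizer_smul_eq_stabilizer_map_conj]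
              rw [Nat.card_congr (Subgroup.equivMapOfInjective _ _ (MulAut.conj h).injective).symm.toEquiv,
                d.toSetup.card_stab d.hba, show stabilizer G d.toSetup.a ⊓ stabilizer G d.b = ⊥ from hD1,
                Subgroup.card_bot, mul_one]),
            Finset.sum_const, Finset.card_univ, ← Nat.card_eq_fintype_card, d.card, smul_eq_mul]
        · intro y _ z _ hyz
          rw [Function.onFun, Finset.disjoint_left]
          intro u hu hu'
          simp only [Finset.mem_erase, Finset.mem_filter, Finset.mem_univ, true_and] at hu hu'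
          exact hu.1 (hpair u y z hyz hu.2 hu'.2)
      have hsub : Disjoint B (insert 1 U) := by
        rw [Finset.disjoint_left]
        intro u hu hu'
        rw [Finset.mem_insert, hU, Finset.mem_biUnion] at hu'
        rcases hu' with rfl | ⟨y, -, hy⟩
        · exact (hmB _).1 hu d.a (one_smul _ _)
        · simp only [Finset.mem_erase, Finset.mem_filter, Finset.mem_univ, true_and] at hy
          exact (hmB u).1 hu y hy.2
      have h1U : (1 : G) ∉ U := by simp [hU]
      have := Finset.card_le_univ (B ∪ insert 1 U)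
      rw [Finset.card_union_of_disjoint hsub, Finset.card_insert_of_notMem h1U, hUc, hcard, Nat.mul_sub,
        mul_one] at this
      have : p ^ 2 + 1 ≤ (p ^ 2 + 1) * p ^ 2 := Nat.le_mul_of_pos_right _ (pow_pos d.prime.pos 2)
      omega
    have hAB : A ⊆ B := fun u hu => (hmB u).2 ((hmA u).1 hu).2
    have heq := Finset.eq_of_subset_of_card_le hAB (hBup.trans hAlow)
    have hxA : x ∈ A := by rw [heq]; exact (hmB x).2 hxfix
    have h22 : orderOf x ∣ 2 := orderOf_dvd_of_pow_eq_one (by rw [pow_two]; exact ((hmA x).1 hxA).1)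
    rw [hx] at h22
    exact hℓ2 ((Nat.prime_dvd_prime_iff_eq hℓ Nat.prime_two).1 h22)
  · have hex : ∃ g : G, g ≠ 1 ∧ ∃ x y : Ω, x ≠ y ∧ g • x = x ∧ g • y = y := by
      obtain ⟨g, hg, hg1⟩ := (Subgroup.bot_or_exists_ne_one D).resolve_left hD1
      exact ⟨g, hg1, d.a, d.b, Ne.symm d.hba, hg.1, hg.2⟩
    have hnoreg : ∀ N : Subgroup G, N.Normal → IsPretransitive N Ω → ∃ x : Ω, stabilizer N x ≠ ⊥ := by
      intro N hN hNt
      by_contra hcon
      push_neg at hcon
      have hbij : Function.Bijective (fun n : N => n • d.a) := ⟨fun n n' e => by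
        have : n'⁻¹ * n ∈ stabilizer N d.a := by
          rw [mem_stabilizer_iff, mul_smul]; rw [show n • d.a = n' • d.a from e, inv_smul_smul]
        rw [hcon d.a, Subgroup.mem_bot, inv_mul_eq_one] at this
        exact this.symm, fun y => hNt.exists_smul_eq d.a y⟩
      have hNc : Nat.card N = p ^ 2 + 1 := by rw [Nat.card_eq_of_bijective _ hbij, d.card]
      haveI : Fact (Nat.Prime 2) := ⟨Nat.prime_two⟩
      obtain ⟨t, ht⟩ := exists_prime_orderOf_dvd_card' (G := N) 2 (by rw [hNc, hm]; exact ⟨m, by omega⟩)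
      obtain ⟨s, hs⟩ := exists_prime_orderOf_dvd_card' (G := N) ℓ (by rw [hNc]; exact hℓdvd)
      have hne : ∀ n : N, n ≠ 1 → n • d.a ≠ d.a := fun n hn e => hn (by
        have : n ∈ stabilizer N d.a := e
        rw [hcon d.a, Subgroup.mem_bot] at this
        exact this)
      have ht1 : t ≠ 1 := fun e => by rw [e, orderOf_one] at ht; omega
      have hs1 : s ≠ 1 := fun e => by rw [e, orderOf_one] at hs; exact hℓ.one_lt.ne hs
      obtain ⟨u, hu, hut⟩ : ∃ u : G, u • d.a = d.a ∧ u • (t • d.a) = s • d.a := by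
        obtain ⟨u, hu1, hu2⟩ := h2 (Ne.symm (hne t ht1)) (Ne.symm (hne s hs1))
        exact ⟨u, hu1, hu2⟩
      have hconj : (⟨u * (t : G) * u⁻¹, hN.conj_mem _ t.2 u⟩ : N) = s := hbij.1 (by
        show (u * (t : G) * u⁻¹) • d.a = s • d.a
        rw [mul_smul, mul_smul, inv_fix hu]; exact hut)
      have h1 : orderOf (u * (t : G) * u⁻¹) = orderOf (t : G) := (MulAut.conj u).orderOf_eq (t : G)
      rw [show u * (t : G) * u⁻¹ = (s : G) from congrArg Subtype.val hconj, Subgroup.orderOf_coe,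
        Subgroup.orderOf_coe, hs, ht] at h1
      exact hℓ2 h1
    have hZ : Cfsg.IsZassenhausGroup G Ω := ⟨inferInstance, d.two, hthree, hex, hnoreg⟩
    have hFab : IsMulCommutative d.P := ⟨⟨fun u v => Subtype.ext (d.P_comm _ u.2 _ v.2)⟩⟩
    have hcard : Fintype.card Ω = p ^ 2 + 1 := by rw [← Nat.card_eq_fintype_card, d.card]
    have hpp : 3 * p ≤ p ^ 2 := by nlinarith
    rcases CfsgLib.AltGroups.zassenhaus_abelian_kernel hZ d.hba d.P hPa hFn hFab hreg with h | ⟨h, -⟩
    · rw [hcard] at h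
      change Nat.card D + 2 = _ at h
      omega
    · rw [hcard] at h
      change _ = 2 * Nat.card D + 2 at h
      omega

end Data

end CfsgLib.DegreePSquare
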