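/-
2-transitive groups of degree `p ^ 2 + 1` have primitive point stabilisers, unless of order 20.
-/
import Mathlib
import Cfsg.Agent.Lib.DegreePSquare.NormalP
import Cfsg.Agent.Lib.SchurMult.Criterion

set_option autoImplicit false

namespace CfsgLib.DegreePSquare

open MulAction
open scoped Pointwise

variable {G Ω : Type*} [Group G] [MulAction G Ω] [Finite G] [Finite Ω] [FaithfulSMul G Ω] {p : ℕ}

namespace Data

variable (d : Data G Ω p)

/-- The kernel of the blocks cannot normalise `Q`. -/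
theorem false_of_ker_normal (hQn : ∀ k ∈ d.ker, ∀ x ∈ d.Q, k * x * k⁻¹ ∈ d.Q) : False := by
  classical
  haveI := Fact.mk d.prime
  set A := stabilizer G d.a
  set M := A ⊓ Subgroup.centralizer (d.Q : Set G) with hM
  set M' := ⁅M, M⁆ with hM'
  have hPM : d.P ≤ M := fun g hg => ⟨d.P_le g hg,
    Subgroup.mem_centralizer_iff.2 fun q hq => d.P_comm q hq.1 g hg⟩
  have hMA : ∀ m ∈ M, m • d.a = d.a := fun m hm => hm.1
  have hMn : ∀ g : G, g • d.a = d.a → ∀ m ∈ M, g * m * g⁻¹ ∈ M := by
    intro g hg m hm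
    refine ⟨show (g * m * g⁻¹) • d.a = d.a by rw [mul_smul, mul_smul, inv_fix hg, hMA m hm, hg],
      Subgroup.mem_centralizer_iff.2 fun q hq => ?_⟩
    have h1 := d.Q_normal_of_ker hQn (inv_fix hg) hq
    rw [inv_inv] at h1
    have h2 := Subgroup.mem_centralizer_iff.1 hm.2 _ h1
    calc q * (g * m * g⁻¹) = g * (g⁻¹ * q * g * m) * g⁻¹ := by group
      _ = g * (m * (g⁻¹ * q * g)) * g⁻¹ := by rw [h2]
      _ = g * m * g⁻¹ * q := by group
  have hM'M : M' ≤ M := M.commutator_le_self
  have hM'n : ∀ g : G, g • d.a = d.a → ∀ m ∈ M', g * m * g⁻¹ ∈ M' := by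
    intro g hg m hm
    have hmap : M.map (MulAut.conj g).toMonoidHom ≤ M := by
      rintro _ ⟨x, hx, rfl⟩
      exact hMn g hg x hx
    have := Subgroup.mem_map_of_mem (MulAut.conj g).toMonoidHom hm
    rw [hM', Subgroup.map_commutator] at this
    exact Subgroup.commutator_mono hmap hmap this
  have horbit : ∀ {n g : G} {x : Ω}, n ∈ M' → g ∈ d.P → x ≠ d.a → n • x = g • x → g ∈ M' :=
    fun {n g x} hn hg hx h => d.mem_of_smul_eq (fun m hm => hMA m (hM'M hm)) hg
      (fun m hm => hM'n g (d.P_le g hg) m hm) hn hx h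
  -- `Q` meets the derived subgroup trivially
  have hQM' : d.Q ⊓ M' = ⊥ := by
    rw [Subgroup.eq_bot_iff_forall]
    rintro z ⟨hzQ, hzM'⟩
    have hzM : z ∈ M := hM'M hzM'
    have hc : (⟨z, hzM⟩ : M) ∈ Subgroup.center M := Subgroup.mem_center_iff.2 fun m =>
      Subtype.ext (Subgroup.mem_centralizer_iff.1 m.2.2 z hzQ).symm
    have hcomm : (⟨z, hzM⟩ : M) ∈ commutator M := by
      have : ⁅M, M⁆ = (commutator M).map M.subtype := by
        rw [commutator_def, Subgroup.map_commutator, ← MonoidHom.range_eq_map, M.range_subtype]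
      rw [hM', this] at hzM'
      obtain ⟨m, hm, hmz⟩ := hzM'
      exact (show m = ⟨z, hzM⟩ from Subtype.ext hmz) ▸ hm
    have h := CfsgLib.SchurMult.pow_index_mem_commutator (d.P.subgroupOf M) hc hcomm
    have hb : ⁅d.P.subgroupOf M, d.P.subgroupOf M⁆ = ⊥ := by
      rw [eq_bot_iff, Subgroup.commutator_le]
      intro u hu v hv
      rw [Subgroup.mem_bot, commutatorElement_eq_one_iff_mul_comm]
      exact Subtype.ext (d.P_comm _ hu _ hv)
    rw [hb, Subgroup.mem_bot] at h
    have hnd : ¬ p ∣ (d.P.subgroupOf M).index := by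
      intro hdvd
      obtain ⟨t, ht⟩ := hdvd
      have h1 := (d.P.subgroupOf M).index_mul_card
      rw [Nat.card_congr (Subgroup.subgroupOfEquivOfLe hPM).toEquiv, d.P_card, ht] at h1
      have h2 : Nat.card M ∣ Nat.card A := Subgroup.card_dvd_of_le inf_le_left
      rw [← h1, d.toSetup.card_stab d.hba, mul_comm (p * t)] at h2
      exact d.not_dvd d.b d.hba ((dvd_mul_right p t).trans ((mul_dvd_mul_iff_left (pow_ne_zero _ d.prime.ne_zero)).1 h2))
    have hz : z ^ (d.P.subgroupOf M).index = 1 := congrArg Subtype.val h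
    exact eq_one_of_pow_coprime hz (d.pow_p_sq hzQ.1) d.prime hnd
  set R := M' ⊓ d.P with hR
  by_cases hR1 : R = ⊥
  · -- `M` is abelian and `P` is normal
    refine d.false_of_normal ?_
    have hM'1 : M' = ⊥ := by
      rw [Subgroup.eq_bot_iff_forall]
      intro n hn
      refine eq_of_smul_eq_smul (α := Ω) fun x => ?_
      rw [one_smul]
      by_cases hx : x = d.a
      · rw [hx]; exact hMA n (hM'M hn)
      · obtain ⟨g0, hg0, rfl⟩ := d.P_trans x hx
        obtain ⟨g1, hg1, hg1x⟩ := d.P_trans (n • g0 • d.b) (smul_ne_of_fix (hMA n (hM'M hn)) hx)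
        have hmem : g1 * g0⁻¹ ∈ R := ⟨horbit hn (mul_mem hg1 (inv_mem hg0)) hx
          (by rw [mul_smul, inv_smul_smul, hg1x]), d.P.mul_mem hg1 (d.P.inv_mem hg0)⟩
        rw [hR1, Subgroup.mem_bot, mul_inv_eq_one] at hmem
        rw [← hg1x, hmem]
    have hMc : ∀ u ∈ M, ∀ v ∈ M, u * v = v * u := by
      intro u hu v hv
      rw [← commutatorElement_eq_one_iff_mul_comm, ← Subgroup.mem_bot, ← hM'1]
      exact Subgroup.commutator_mem_commutator hu hv
    intro g hg x hx
    set Pg := d.P.map (MulAut.conj g).toMonoidHom with hPg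
    have hPgM : Pg ≤ M := by
      rintro _ ⟨y, hy, rfl⟩
      exact hMn g hg y (hPM hy)
    have hp1 : IsPGroup p d.P := IsPGroup.of_card d.P_card
    have hp2 : IsPGroup p Pg := hp1.map _
    have hnorm : Pg ≤ Subgroup.normalizer (d.P : Set G) := fun y hy =>
      Subgroup.mem_normalizer_iff.2 fun z => by
        constructor
        · intro hz
          rwa [hMc y (hPgM hy) z (hPM hz), mul_inv_cancel_right]
        · intro hz
          have hc := hMc y⁻¹ (inv_mem (hPgM hy)) _ (hPM hz)
          have h2 : z = y⁻¹ * (y * z * y⁻¹) * y := by group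
          rw [h2, hc, mul_assoc, inv_mul_cancel, mul_one]
          exact hz
    have := d.eq_of_le (hp2.to_sup_of_normal_right' hp1 hnorm)
      (fun y hy => hMA y ((sup_le hPgM hPM : Pg ⊔ d.P ≤ M) hy)) le_sup_right
    rw [← this]
    exact (le_sup_left : Pg ≤ _) ⟨x, hx, rfl⟩
  · -- the orbits of `M'` form a second system
    have hRP : R ≤ d.P := inf_le_right
    have hQR : d.Q ⊓ R = ⊥ := by
      rw [eq_bot_iff, ← hQM']
      exact inf_le_inf le_rfl inf_le_left
    have hRc : Nat.card R = p := by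
      obtain ⟨i, hi2, hi⟩ := (Nat.dvd_prime_pow d.prime).1 (d.P_card ▸ Subgroup.card_dvd_of_le hRP)
      rcases i with _ | _ | i
      · exact absurd (Subgroup.card_eq_one.1 (hi.trans (pow_zero p))) hR1
      · rw [hi, pow_one]
      · exfalso
        have : i = 0 := by omega
        subst this
        have hRP' : R = d.P := Subgroup.eq_of_le_of_card_ge hRP (by rw [hi, d.P_card])
        have h1 : d.Q ≤ R := hRP' ▸ inf_le_left
        rw [inf_eq_left.2 h1] at hQR
        have := d.card_Q
        rw [hQR, Subgroup.card_bot] at this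
        exact d.prime.one_lt.ne this
    let T : Sys G d.a p :=
      { rel := fun x y => x ≠ d.a ∧ y ≠ d.a ∧ ∃ n ∈ M', n • x = y
        ne := fun x y h => h.1
        refl := fun x hx => ⟨hx, hx, 1, one_mem _, one_smul _ _⟩
        symm := fun x y ⟨hx, hy, g, hg, e⟩ => ⟨hy, hx, g⁻¹, inv_mem hg, inv_smul_eq_iff.2 e.symm⟩
        trans := fun x y z ⟨hx, _, g, hg, e⟩ ⟨_, hz, g', hg', e'⟩ =>
          ⟨hx, hz, g' * g, mul_mem hg' hg, by rw [mul_smul, e, e']⟩
        inv := fun g hga x y ⟨hx, hy, k, hk, e⟩ => ⟨smul_ne_of_fix hga hx, smul_ne_of_fix hga hy,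
          g * k * g⁻¹, hM'n g hga k hk, by rw [mul_smul, mul_smul, inv_smul_smul, e]⟩
        card := fun x hx => by
          refine Eq.trans (Nat.card_congr (Equiv.subtypeEquivRight fun y => ?_)) (d.card_P_orbit hRP hRc hx)
          constructor
          · rintro ⟨h1, h2, n, hn, rfl⟩
            obtain ⟨g0, hg0, hg0x⟩ := d.P_trans x hx
            obtain ⟨g1, hg1, hg1x⟩ := d.P_trans _ h2
            have he : (g1 * g0⁻¹) • x = n • x := by rw [mul_smul, ← hg1x]; congr 1; rw [inv_smul_eq_iff, hg0x]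
            exact ⟨h1, h2, g1 * g0⁻¹,
              ⟨horbit hn (mul_mem hg1 (inv_mem hg0)) hx he.symm, d.P.mul_mem hg1 (d.P.inv_mem hg0)⟩, he⟩
          · rintro ⟨h1, h2, g, hg, e⟩
            exact ⟨h1, h2, g, hg.1, e⟩ }
    have hST : d.S.Transversal T := by
      rintro x y hS ⟨hx, -, n, hn, rfl⟩
      obtain ⟨q, hq, hqx⟩ := d.exists_mem_Q hS
      have h1 : q ∈ d.Q ⊓ M' := ⟨hq, horbit hn hq.1 hx hqx.symm⟩
      rw [hQM', Subgroup.mem_bot] at h1
      rw [← hqx, h1, one_smul]
    by_cases hbot : d.S.fixBlock d.b = ⊥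
    · -- then `M' = R`, so `P = Q R` is normal
      have hM'R : M' ≤ R := by
        intro n hn
        have hna := hMA n (hM'M hn)
        obtain ⟨g, hg, hgb⟩ := d.P_trans (n • d.b) (smul_ne_of_fix hna d.hba)
        have hgM' : g ∈ M' := horbit hn hg d.hba hgb.symm
        have hu : g⁻¹ * n ∈ M' := mul_mem (inv_mem hgM') hn
        have hua := hMA _ (hM'M hu)
        have hub : (g⁻¹ * n) • d.b = d.b := by rw [mul_smul, ← hgb, inv_smul_smul]
        have h1 : g⁻¹ * n ∈ d.S.fixBlock d.b := by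
          refine d.S.mem_fixBlock.2 ⟨hua, fun z hz => ?_⟩
          obtain ⟨q, hq, rfl⟩ := d.exists_mem_Q hz
          rw [← mul_smul, ← Subgroup.mem_centralizer_iff.1 (hM'M hu).2 q hq, mul_smul, hub]
        rw [hbot, Subgroup.mem_bot, inv_mul_eq_one] at h1
        exact h1 ▸ ⟨hgM', hg⟩
      refine d.false_of_normal fun g hg x hx => ?_
      obtain ⟨u, hu⟩ : ∃ u ∈ R, d.S.rel (u • d.b) (x • d.b) := by
        obtain ⟨z, hz, hz'⟩ := hST.symm'.exists_meet d.card d.hba (smul_ne_of_fix (d.P_le x hx) d.hba)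
        obtain ⟨-, hza, n, hn, rfl⟩ := hz
        exact ⟨n, hM'R hn, hz'⟩
      obtain ⟨q, hq, hqx⟩ := d.exists_mem_Q hu.2
      have hxe : x = q * u := by
        have := d.P_free (x⁻¹ * (q * u)) (mul_mem (inv_mem hx) (mul_mem hq.1 (hRP hu.1))) d.b d.hba
          (by rw [mul_smul, mul_smul, hqx, inv_smul_smul])
        exact inv_mul_eq_one.1 this
      rw [hxe, show g * (q * u) * g⁻¹ = (g * q * g⁻¹) * (g * u * g⁻¹) by group]
      exact mul_mem (d.Q_normal_of_ker hQn hg hq).1 (hRP (hM'R (hM'n g hg u hu.1.1)))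
    · exact hST.false_of d.card d.hba d.prime d.three_le d.two (Or.inl hbot)

include d in
theorem impossible : False := by
  by_cases h : ∀ k ∈ d.ker, ∀ x ∈ d.Q, k * x * k⁻¹ ∈ d.Q
  · exact d.false_of_ker_normal h
  · exact d.false_of_not_normal h

end Data

omit [FaithfulSMul G Ω] in
/-- A nontrivial system of blocks of the point stabiliser yields a `Sys`. -/
theorem exists_sys (h2 : IsMultiplyPretransitive G Ω 2) (hp : p.Prime) (hn : Nat.card Ω = p ^ 2 + 1)
    {a : Ω} (h : ¬ IsPreprimitive ↥(stabilizer G a) ↥(SubMulAction.ofStabilizer G a)) :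
    Nonempty (Sys G a p) := by
  classical
  haveI := Fintype.ofFinite Ω
  set H := stabilizer G a
  set X := SubMulAction.ofStabilizer G a
  rw [is_two_pretransitive_iff] at h2
  haveI htr : IsPretransitive H X := ⟨fun x y => by
    obtain ⟨g, hga, hgx⟩ := h2 (Ne.symm x.2 : a ≠ (x : Ω)) (Ne.symm y.2 : a ≠ (y : Ω))
    exact ⟨⟨g, hga⟩, Subtype.ext hgx⟩⟩
  have hXne : ∀ x : X, (x : Ω) ≠ a := fun x => x.2
  let e : X ≃ {y : Ω // y ≠ a} :=
    ⟨fun x => ⟨x, x.2⟩, fun y => ⟨y, y.2⟩, fun x => rfl, fun y => rfl⟩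
  have hcard : Nat.card X = p ^ 2 := by
    rw [Nat.card_congr e, Nat.card_eq_fintype_card, Fintype.card_subtype_compl, Fintype.card_subtype_eq,
      ← Nat.card_eq_fintype_card, hn, Nat.add_sub_cancel]
  obtain ⟨B, hB, hBt⟩ : ∃ B : Set X, IsBlock H B ∧ ¬ IsTrivialBlock B := by
    by_contra! hcon
    exact h ⟨fun {B} hB => hcon B hB⟩
  simp only [IsTrivialBlock, not_or, Set.not_subsingleton_iff] at hBt
  have hBne : B.Nonempty := hBt.1.nonempty
  have hsys := hB.isBlockSystem hBne
  have hBc : B.ncard = p := by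
    have hdvd : B.ncard ∣ p ^ 2 := hcard ▸ hB.ncard_dvd_card hBne
    obtain ⟨i, hi2, hi⟩ := (Nat.dvd_prime_pow hp).1 hdvd
    rcases i with _ | _ | i
    · obtain ⟨x, hx, y, hy, hxy⟩ := hBt.1
      rw [pow_zero] at hi
      exact absurd (Set.ncard_le_one (Set.toFinite B) |>.1 hi.le x hx y hy) hxy
    · rw [hi, pow_one]
    · have : i = 0 := by omega
      subst this
      exact absurd (Set.eq_univ_of_univ_subset (Set.eq_of_subset_of_ncard_le (Set.subset_univ B)
        (by rw [Set.ncard_univ, hcard, hi])).ge) hBt.2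
  refine ⟨{
    rel := fun x y => ∃ (hx : x ≠ a) (hy : y ≠ a) (g : H), (⟨x, hx⟩ : X) ∈ g • B ∧ (⟨y, hy⟩ : X) ∈ g • B
    ne := fun x y h => h.1
    refl := fun x hx => ?_
    symm := fun x y ⟨hx, hy, g, h1, h2⟩ => ⟨hy, hx, g, h2, h1⟩
    trans := fun x y z ⟨hx, hy, g, h1, h2⟩ ⟨hy', hz, g', h1', h2'⟩ => ⟨hx, hz, g, h1, ?_⟩
    inv := fun u hua x y ⟨hx, hy, g, h1, h2⟩ => ?_
    card := fun x hx => ?_ }⟩
  · obtain ⟨b, hb⟩ := hBne
    obtain ⟨g, hg⟩ := htr.exists_smul_eq b ⟨x, hx⟩
    exact ⟨hx, hx, g, hg ▸ Set.smul_mem_smul_set hb, hg ▸ Set.smul_mem_smul_set hb⟩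
  · rw [hB.smul_eq_smul_of_nonempty ⟨⟨y, hy⟩, h2, h1'⟩]
    exact h2'
  · refine ⟨smul_ne_of_fix hua hx, smul_ne_of_fix hua hy, ⟨u, hua⟩ * g, ?_, ?_⟩
    · rw [mul_smul]
      exact ⟨_, h1, rfl⟩
    · rw [mul_smul]
      exact ⟨_, h2, rfl⟩
  · obtain ⟨b, hb⟩ := hBne
    obtain ⟨g0, hg0⟩ := htr.exists_smul_eq b ⟨x, hx⟩
    have hx0 : (⟨x, hx⟩ : X) ∈ g0 • B := hg0 ▸ Set.smul_mem_smul_set hb
    let φ : ↥(g0 • B) ≃ {y : Ω // ∃ (hx : x ≠ a) (hy : y ≠ a) (g : H),
        (⟨x, hx⟩ : X) ∈ g • B ∧ (⟨y, hy⟩ : X) ∈ g • B} :=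
      { toFun := fun z => ⟨z.1, hx, hXne z.1, g0, hx0, z.2⟩
        invFun := fun y => ⟨⟨y.1, y.2.2.1⟩, by
          obtain ⟨y, hx', hy, g, h1, h2⟩ := y
          rw [hB.smul_eq_smul_of_nonempty ⟨⟨x, hx⟩, hx0, h1⟩]
          exact h2⟩
        left_inv := fun z => rfl
        right_inv := fun y => rfl }
    rw [← Nat.card_congr φ, Nat.card_coe_set_eq, Set.ncard_smul_set, hBc]

/-- For `p = 2` the group has order 20. -/
theorem card_of_degree_five (h2 : IsMultiplyPretransitive G Ω 2) (hn : Nat.card Ω = 5) {a : Ω}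
    (S : Sys G a 2) : Nat.card G = 20 := by
  classical
  haveI := Fintype.ofFinite Ω
  haveI : Fact (Nat.Prime 5) := ⟨by norm_num⟩
  rw [is_two_pretransitive_iff] at h2
  obtain ⟨b, hb⟩ : ∃ b : Ω, b ≠ a := by
    by_contra! hcon
    haveI : Subsingleton Ω := ⟨fun x y => (hcon x).trans (hcon y).symm⟩
    have := Finite.card_le_one_iff_subsingleton.2 (inferInstance : Subsingleton Ω)
    omega
  set A := stabilizer G a
  set D := stabilizer G a ⊓ stabilizer G b with hD
  -- the two point stabiliser is a `2`-group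
  have hD3 : ∀ g ∈ D, g ^ 2 ^ 3 = 1 := by
    rintro g ⟨hga, hgb⟩
    refine eq_of_smul_eq_smul (α := Ω) fun x => ?_
    rw [one_smul]
    have hpow : ∀ {y : Ω}, g • y = y → ∀ k : ℕ, g ^ k • y = y := fun {y} hy k =>
      show g ^ k ∈ stabilizer G y from pow_mem (show g ∈ stabilizer G y from hy) k
    have hdouble : ∀ {u : G} {y : Ω}, u • a = a → S.rel y (u • y) → u • u • y = y := by
      intro u y hua hy
      by_contra hne
      have hya := S.ne _ _ hy
      have hy2 := S.trans _ _ _ hy (S.inv u hua _ _ hy)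
      have h1 : u • y ≠ y := fun e => hne (by rw [e, e])
      have h2 : u • u • y ≠ u • y := fun e => h1 (MulAction.injective u e)
      let f : Fin 3 → {z // S.rel y z} := ![⟨y, S.refl y hya⟩, ⟨u • y, hy⟩, ⟨u • u • y, hy2⟩]
      have hf : Function.Injective f := by
        intro i j e
        fin_cases i <;> fin_cases j <;> simp [f, Subtype.ext_iff] at e <;>
          first | rfl | exact absurd e h1 | exact absurd e.symm h1 | exact absurd e h2 |
            exact absurd e.symm h2 | exact absurd e hne | exact absurd e.symm hne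
      have := Nat.card_le_card_of_injective f hf
      rw [Nat.card_fin, S.card y hya] at this
      omega
    by_cases hxa : x = a
    · rw [hxa]; exact hpow hga _
    by_cases hbx : S.rel b x
    · have h := S.inv g hga _ _ hbx
      rw [hgb] at h
      have := hdouble hga (S.trans _ _ _ (S.symm _ _ hbx) h)
      have h' : (g ^ 2) • x = x := by rw [pow_two, mul_smul, this]
      rw [show (2 : ℕ) ^ 3 = 2 * 4 by norm_num, pow_mul]
      exact show (g ^ 2) ^ 4 ∈ stabilizer G x from pow_mem (show g ^ 2 ∈ stabilizer G x from h') 4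
    · have hgx : ¬ S.rel b (g • x) := fun h => hbx (by
        have := S.inv g⁻¹ (inv_fix hga) _ _ h
        rwa [inv_smul_smul, show g⁻¹ • b = b from inv_smul_eq_iff.2 hgb.symm] at this)
      have hrel : S.rel x (g • x) := by
        by_contra hne
        have hgxa : g • x ≠ a := smul_ne_of_fix hga hxa
        let f : {z // S.rel b z} ⊕ {z // S.rel x z} ⊕ {z // S.rel (g • x) z} → {z : Ω // z ≠ a} :=
          Sum.elim (fun z => ⟨z, S.ne' z.2⟩) (Sum.elim (fun z => ⟨z, S.ne' z.2⟩) (fun z => ⟨z, S.ne' z.2⟩))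
        have hf : Function.Injective f := by
          have key : ∀ {u v s t : Ω}, ¬ S.rel u v → S.rel u s → S.rel v t → s ≠ t :=
            fun huv hs ht e => huv (S.trans _ _ _ hs (e ▸ S.symm _ _ ht))
          rintro (⟨s, hs⟩ | ⟨s, hs⟩ | ⟨s, hs⟩) (⟨t, ht⟩ | ⟨t, ht⟩ | ⟨t, ht⟩) e <;>
            have e' : s = t := congrArg Subtype.val e <;> first
            | (subst e'; rfl)
            | exact absurd e' (key hbx hs ht)
            | exact absurd e'.symm (key hbx ht hs)
            | exact absurd e' (key hgx hs ht)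
            | exact absurd e'.symm (key hgx ht hs)
            | exact absurd e' (key hne hs ht)
            | exact absurd e'.symm (key hne ht hs)
        have := Nat.card_le_card_of_injective f hf
        rw [Nat.card_sum, Nat.card_sum, S.card b hb, S.card x hxa, S.card _ hgxa, Nat.card_eq_fintype_card,
          Fintype.card_subtype_compl, Fintype.card_subtype_eq, ← Nat.card_eq_fintype_card, hn] at this
        omega
      have := hdouble hga hrel
      have h' : (g ^ 2) • x = x := by rw [pow_two, mul_smul, this]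
      rw [show (2 : ℕ) ^ 3 = 2 * 4 by norm_num, pow_mul]
      exact show (g ^ 2) ^ 4 ∈ stabilizer G x from pow_mem (show g ^ 2 ∈ stabilizer G x from h') 4
  have hcardG : Nat.card G = 5 * (4 * Nat.card D) := by
    have horb : orbit G a = Set.univ := Set.eq_univ_of_forall fun y => by
      by_cases hy : y = a
      · rw [hy]; exact mem_orbit_self _
      · obtain ⟨g, hg, -⟩ := h2 (Ne.symm hb) hy
        exact ⟨g, hg⟩
    have horb' : orbit A b = {x | x ≠ a} := by
      ext x
      refine ⟨?_, fun hx => ?_⟩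
      · rintro ⟨g, rfl⟩
        exact smul_ne_of_fix g.2 hb
      · obtain ⟨g, hga, hgb⟩ := h2 (Ne.symm hb) (Ne.symm hx)
        exact ⟨⟨g, hga⟩, hgb⟩
    rw [← (stabilizer G a).index_mul_card, MulAction.index_stabilizer, horb, Set.ncard_univ, hn,
      ← (stabilizer A b).index_mul_card, MulAction.index_stabilizer, horb',
      show {x : Ω | x ≠ a} = Set.univ \ {a} by ext x; simp,
      Set.ncard_sdiff_singleton_of_mem (Set.mem_univ _), Set.ncard_univ, hn]
    congr 2
    exact Nat.card_congr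
      { toFun := fun g => ⟨g.1.1, g.1.2, g.2⟩
        invFun := fun g => ⟨⟨g.1, g.2.1⟩, g.2.2⟩
        left_inv := fun g => rfl
        right_inv := fun g => rfl }
  -- `G` is a subgroup of `S_5`, so `|D| ≤ 2`
  have hD2 : Nat.card D ∣ 2 := by
    haveI : Fact (Nat.Prime 2) := ⟨Nat.prime_two⟩
    have hp : IsPGroup 2 D := fun g => ⟨3, Subtype.ext (hD3 g g.2)⟩
    obtain ⟨k, hk⟩ := hp.exists_card_eq
    have hdvd : Nat.card G ∣ Nat.card (Equiv.Perm Ω) :=
      Subgroup.card_dvd_of_injective (MulAction.toPermHom G Ω) MulAction.toPerm_injective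
    rw [Nat.card_perm, hn, hcardG, hk] at hdvd
    rw [hk]
    rcases k with _ | _ | k
    · norm_num
    · norm_num
    · exfalso
      have h4 : 5 * (4 * 4) ∣ Nat.factorial 5 :=
        (mul_dvd_mul_left 5 (mul_dvd_mul_left 4 (show 4 ∣ 2 ^ (k + 1 + 1) from ⟨2 ^ k, by ring⟩))).trans hdvd
      norm_num [Nat.factorial] at h4
  -- the Sylow 5-subgroup is normal and self-centralising
  obtain ⟨P⟩ : Nonempty (Sylow 5 G) := inferInstance
  have hPc : Nat.card P = 5 := by
    rw [P.card_eq_multiplicity, hcardG]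
    rcases (Nat.dvd_prime Nat.prime_two).1 hD2 with e | e <;> rw [e]
    · rw [show 5 * (4 * 1) = 5 ^ 1 * 4 by norm_num, Nat.factorization_mul (by norm_num) (by norm_num),
        Finsupp.add_apply, Nat.factorization_eq_zero_of_not_dvd (show ¬ 5 ∣ 4 by norm_num),
        (show Nat.Prime 5 by norm_num).factorization_pow]
      simp
    · rw [show 5 * (4 * 2) = 5 ^ 1 * 8 by norm_num, Nat.factorization_mul (by norm_num) (by norm_num),
        Finsupp.add_apply, Nat.factorization_eq_zero_of_not_dvd (show ¬ 5 ∣ 8 by norm_num),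
        (show Nat.Prime 5 by norm_num).factorization_pow]
      simp
  have hPn : (P : Subgroup G).Normal := by
    have h1 := card_sylow_modEq_one 5 G
    have h2 : Nat.card (Sylow 5 G) ∣ (P : Subgroup G).index := P.card_dvd_index
    have h3 := (P : Subgroup G).index_mul_card
    rw [hPc, hcardG] at h3
    have hidx : (P : Subgroup G).index ∣ 8 := by
      have : (P : Subgroup G).index = 4 * Nat.card D := by
        have h4 : (P : Subgroup G).index * 5 = 4 * Nat.card D * 5 := by rw [h3]; ring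
        exact Nat.eq_of_mul_eq_mul_right (by norm_num) h4
      rw [this]
      exact (mul_dvd_mul_left 4 hD2)
    have h8 : Nat.card (Sylow 5 G) ∣ 8 := h2.trans hidx
    have h9 : Nat.card (Sylow 5 G) ≤ 8 := Nat.le_of_dvd (by norm_num) h8
    have : Nat.card (Sylow 5 G) = 1 := by
      unfold Nat.ModEq at h1
      generalize Nat.card (Sylow 5 G) = m at h1 h8 h9 ⊢
      interval_cases m <;> omega
    haveI := (Nat.card_eq_one_iff_unique.1 this).1
    exact P.normal_of_subsingleton
  obtain ⟨⟨q, hqP⟩, hq⟩ := exists_prime_orderOf_dvd_card' (G := (P : Subgroup G)) 5 (by rw [hPc])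
  rw [← Subgroup.orderOf_coe] at hq
  change orderOf q = 5 at hq
  have hqa : q • a ≠ a := by
    intro e
    have hd : orderOf q ∣ Nat.card A := by
      have h0 := orderOf_dvd_natCard (⟨q, e⟩ : A)
      rwa [← Subgroup.orderOf_coe] at h0
    have hA : Nat.card G = 5 * Nat.card A := by
      rw [← (stabilizer G a).index_mul_card, MulAction.index_stabilizer,
        show orbit G a = Set.univ from Set.eq_univ_of_forall fun y => by
          by_cases hy : y = a
          · rw [hy]; exact mem_orbit_self _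
          · obtain ⟨g, hg, -⟩ := h2 (Ne.symm hb) hy
            exact ⟨g, hg⟩, Set.ncard_univ, hn]
    have : Nat.card A = 4 * Nat.card D := by omega
    rw [hq, this] at hd
    rcases (Nat.dvd_prime Nat.prime_two).1 hD2 with e | e <;> rw [e] at hd <;> norm_num at hd
  have horbq : orbit (P : Subgroup G) a = Set.univ := by
    refine Set.eq_of_subset_of_ncard_le (Set.subset_univ _) ?_
    rw [Set.ncard_univ, hn]
    have hp : IsPGroup 5 (P : Subgroup G) := P.isPGroup'
    obtain ⟨i, hi⟩ := hp.card_orbit a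
    rw [Nat.card_coe_set_eq] at hi
    rcases i with _ | i
    · rw [pow_zero] at hi
      exact absurd (Set.ncard_le_one (Set.toFinite _) |>.1 hi.le _ ⟨⟨q, hqP⟩, rfl⟩ _ (mem_orbit_self a)) hqa
    · rw [hi]; exact Nat.le_self_pow (by omega) 5
  obtain ⟨⟨q', hq'P⟩, hq'⟩ : ∃ u : (P : Subgroup G), u • a = b :=
    show b ∈ orbit (P : Subgroup G) a from horbq ▸ Set.mem_univ b
  change q' • a = b at hq'
  haveI : IsCyclic (P : Subgroup G) := isCyclic_of_prime_card hPc
  have hPab : ∀ u ∈ P, ∀ v ∈ P, u * v = v * u := fun u hu v hv =>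
    congrArg Subtype.val (IsCyclic.commutative.is_comm.comm (⟨u, hu⟩ : (P : Subgroup G)) ⟨v, hv⟩)
  -- an element of `A` is determined by its action on `q`
  let f : A → (P : Subgroup G) := fun g => ⟨(g : G) * q * (g : G)⁻¹, hPn.conj_mem q hqP g⟩
  have hfinj : Function.Injective f := by
    intro g g' e
    have e' : (g : G) * q * (g : G)⁻¹ = (g' : G) * q * (g' : G)⁻¹ := congrArg Subtype.val e
    refine Subtype.ext (inv_mul_eq_one.1 ?_).symm
    set u := (g' : G)⁻¹ * g with hu
    have huq : u * q = q * u := by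
      calc u * q = (g' : G)⁻¹ * ((g : G) * q * (g : G)⁻¹) * g := by rw [hu]; group
        _ = q * u := by rw [e', hu]; group
    have hua : u • a = a := by rw [hu, mul_smul, show (g : G) • a = a from g.2, inv_fix g'.2]
    refine eq_of_smul_eq_smul (α := Ω) fun x => ?_
    obtain ⟨⟨v, hv⟩, rfl⟩ : x ∈ orbit (P : Subgroup G) a := horbq ▸ Set.mem_univ x
    have hzq : Subgroup.zpowers q = (P : Subgroup G) := Subgroup.eq_of_le_of_card_ge
      (Subgroup.zpowers_le.2 hqP) (by rw [Nat.card_zpowers, hq, hPc])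
    obtain ⟨i, rfl⟩ : ∃ i : ℤ, q ^ i = v := by
      rw [← Subgroup.mem_zpowers_iff, hzq]; exact hv
    rw [one_smul]
    show u • (q ^ i) • a = (q ^ i) • a
    rw [← mul_smul, ((show Commute u q from huq).zpow_right i).eq, mul_smul, hua]
  have hAle : Nat.card A ≤ 4 := by
    have hne : ∀ g, f g ≠ 1 := fun g h => by
      have h1 : (g : G) * q * (g : G)⁻¹ = 1 := congrArg Subtype.val h
      have : q = 1 := by
        calc q = (g : G)⁻¹ * ((g : G) * q * (g : G)⁻¹) * g := by group
          _ = 1 := by rw [h1]; group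
      rw [this, orderOf_one] at hq
      omega
    haveI := Fintype.ofFinite A
    haveI := Fintype.ofFinite (P : Subgroup G)
    have := Fintype.card_lt_of_injective_of_notMem f hfinj (b := 1) (by rintro ⟨g, hg⟩; exact hne g hg)
    rw [← Nat.card_eq_fintype_card, ← Nat.card_eq_fintype_card, hPc] at this
    omega
  have hA : Nat.card G = 5 * Nat.card A := by
    rw [← (stabilizer G a).index_mul_card, MulAction.index_stabilizer,
      show orbit G a = Set.univ from Set.eq_univ_of_forall fun y => by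
        by_cases hy : y = a
        · rw [hy]; exact mem_orbit_self _
        · obtain ⟨g, hg, -⟩ := h2 (Ne.symm hb) hy
          exact ⟨g, hg⟩, Set.ncard_univ, hn]
  have : 0 < Nat.card D := Nat.card_pos
  omega

end CfsgLib.DegreePSquare
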